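import Cfsg.Agent.H88.CD3
import Cfsg.Agent.H88.ItoP
import Cfsg.Agent.H24.FpfBasic

/-!
Solvable groups without divisibility among character degrees: generic lemmas and the set-up.
-/

set_option autoImplicit false
set_option linter.unusedSectionVars false
set_option linter.unusedVariables false

open scoped commutatorElement
open Cfsg Cfsg.Agent.H5 Cfsg.Agent.H6 Cfsg.Agent.H88 Subgroup

namespace Cfsg.Agent.ND

variable {G : Type*} [Group G] [Finite G]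

theorem ito_ker {χ : G → ℂ} (h : IsIrrCharacter G χ) (A : Subgroup G) [A.Normal]
    (hA : ∀ a ∈ A, ∀ b ∈ A, χ ⁅a, b⁆ = χ 1) : charDegree χ ∣ A.index := by
  let Kχ := charKer (isCharacter_of_isIrr h)
  obtain ⟨φ, hφ, e⟩ := exists_isIrr_quotient Kχ h fun g hg => hg
  have hs := QuotientGroup.mk'_surjective Kχ
  have : (A.map (QuotientGroup.mk' Kχ)).Normal := Normal.map inferInstance _ hs
  have h1 := charDegree_dvd_index_of_comm hφ (A.map (QuotientGroup.mk' Kχ)) (by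
    rintro _ ⟨a, ha, rfl⟩ _ ⟨b, hb, rfl⟩
    rw [← commutatorElement_eq_one_iff_mul_comm, ← map_commutatorElement]
    exact (QuotientGroup.eq_one_iff _).2 (hA a ha b hb))
  rw [e, charDegree_inflate]
  exact h1.trans (index_map_dvd A hs)

theorem exists_lin {H V : Subgroup G} (hV : ⁅H, H⁆ ≤ V) {x : G} (hx : x ∈ H) (hxV : x ∉ V) :
    ∃ w : H →* ℂˣ, w ⟨x, hx⟩ ≠ 1 ∧ ∀ v : H, (v : G) ∈ V → w v = 1 := by
  have hc : commutator H ≤ V.subgroupOf H := fun y hy =>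
    hV (by rw [← map_subtype_commutator]; exact ⟨y, hy, rfl⟩)
  have : (V.subgroupOf H).Normal := normal_of_commutator_le hc
  have hab : ∀ a b : H ⧸ V.subgroupOf H, a * b = b * a := fun a b => by
    obtain ⟨a, rfl⟩ := QuotientGroup.mk'_surjective _ a
    obtain ⟨b, rfl⟩ := QuotientGroup.mk'_surjective _ b
    rw [← commutatorElement_eq_one_iff_mul_comm, ← map_commutatorElement]
    exact (QuotientGroup.eq_one_iff _).2 (hc (commutatorElement_mem_commutator' a b))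
  by_contra hcon
  push Not at hcon
  refine hxV ((QuotientGroup.eq_one_iff (N := V.subgroupOf H) ⟨x, hx⟩).1
    (eq_one_of_forall_irr fun χ hχ => ?_))
  obtain ⟨μ, rfl⟩ := exists_monoidHom_of_comm hab hχ
  by_contra hne
  obtain ⟨v, hv, hv'⟩ := hcon (μ.comp (QuotientGroup.mk' _)) fun e => hne (by
    simp only [map_one]; exact congrArg Units.val e)
  exact hv' (by
    rw [MonoidHom.comp_apply, QuotientGroup.mk'_apply, (QuotientGroup.eq_one_iff v).2 hv, map_one])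

theorem relIndex_eq_of_coprime {T N : Subgroup G} (h : T.index.Coprime N.index) :
    T.relIndex N = T.index := by
  have h1 : (T ⊓ N).index = T.relIndex N * N.index := by
    rw [← inf_relIndex_right, relIndex_mul_index inf_le_right]
  have h2 : T.index ∣ T.relIndex N :=
    h.dvd_of_dvd_mul_right (h1 ▸ index_dvd_of_le inf_le_left)
  refine le_antisymm ?_ (Nat.le_of_dvd (Nat.pos_of_ne_zero index_ne_zero_of_finite) h2)
  rw [← relIndex_top_right]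
  exact relIndex_le_of_le_right le_top (by rw [relIndex_top_right]; exact index_ne_zero_of_finite)

theorem dec_of_coprime {T N : Subgroup G} [N.Normal] (h : T.index.Coprime N.index) (a : G) :
    ∃ n ∈ N, ∃ t ∈ T, n * t = a := by
  have : N ⊔ T = ⊤ := index_eq_one.1 (Nat.eq_one_of_dvd_coprimes h
    (index_dvd_of_le le_sup_right) (index_dvd_of_le le_sup_left))
  exact mem_sup_of_normal_left.1 (this ▸ mem_top a)

theorem surj_of_fpf {M : Subgroup G} {a : G} (hn : ∀ m ∈ M, a⁻¹ * m * a ∈ M)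
    (h : ∀ m ∈ M, a * m = m * a → m = 1) {n : G} (hm : n ∈ M) :
    ∃ m ∈ M, a⁻¹ * m * a * m⁻¹ = n := by
  let f : M → M := fun m => ⟨a⁻¹ * m * a * (m : G)⁻¹, mul_mem (hn m m.2) (inv_mem m.2)⟩
  have hf : Function.Injective f := fun m m' e => by
    have e1 : a⁻¹ * m * a * (m : G)⁻¹ = a⁻¹ * m' * a * (m' : G)⁻¹ := congrArg Subtype.val e
    have := h ((m' : G)⁻¹ * m) (mul_mem (inv_mem m'.2) m.2) (by
      calc a * ((m' : G)⁻¹ * m) = (m' : G)⁻¹ * a * (a⁻¹ * m' * a * (m' : G)⁻¹) * m := by group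
        _ = _ := by rw [← e1]; group)
    exact Subtype.ext (inv_mul_eq_one.1 this).symm
  obtain ⟨m, hm'⟩ := Finite.injective_iff_surjective.1 hf ⟨n, hm⟩
  exact ⟨m, m.2, congrArg Subtype.val hm'⟩

theorem fpf_of_surj {M : Subgroup G} {a : G} (hn : ∀ m ∈ M, a⁻¹ * m * a ∈ M)
    (h : ∀ n ∈ M, ∃ m ∈ M, a⁻¹ * m * a * m⁻¹ = n) {m : G} (hm : m ∈ M) (e : a * m = m * a) :
    m = 1 := by
  let f : M → M := fun m => ⟨a⁻¹ * m * a * (m : G)⁻¹, mul_mem (hn m m.2) (inv_mem m.2)⟩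
  have hf : Function.Surjective f := fun n => by
    obtain ⟨m, hm, e⟩ := h n n.2
    exact ⟨⟨m, hm⟩, Subtype.ext e⟩
  have := Finite.injective_iff_surjective.2 hf (a₁ := ⟨m, hm⟩) (a₂ := 1) (Subtype.ext (by
    change a⁻¹ * m * a * m⁻¹ = a⁻¹ * 1 * a * 1⁻¹
    rw [mul_assoc a⁻¹, ← e]; group))
  exact congrArg Subtype.val this

theorem dec_fpf {H M : Subgroup G} [hM : M.Normal] (hH : ⁅H, H⁆ ≤ M) {a : G} (ha : a ∈ H)
    (h : ∀ m ∈ M, a * m = m * a → m = 1) {y : G} (hy : y ∈ H) :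
    ∃ m ∈ M, a * (m⁻¹ * y) = m⁻¹ * y * a := by
  obtain ⟨m, hm, e⟩ := surj_of_fpf (fun m hm => hM.conj_mem' m hm a) h
    (n := a⁻¹ * y * a * y⁻¹) (hH (by
      simpa [commutatorElement_def] using commutator_mem_commutator (inv_mem ha) hy))
  refine ⟨m, hm, ?_⟩
  calc a * (m⁻¹ * y) = m⁻¹ * a * (a⁻¹ * m * a * m⁻¹) * y := by group
    _ = _ := by rw [e]; group

theorem fpf_of_cam {H M : Subgroup G} [hM : M.Normal] (hH : ⁅H, H⁆ ≤ M) (hMH : M ≤ H) {a : G}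
    (ha : a ∈ H) (h : ∀ m ∈ M, a * m = m * a → m = 1) {b : G} (hb : b ∈ H) (hab : a * b = b * a)
    (hc : ∀ n ∈ M, ∃ y ∈ H, y * b * y⁻¹ = b * n) : ∀ m ∈ M, b * m = m * b → m = 1 := by
  intro m hm e
  refine fpf_of_surj (fun m hm => hM.conj_mem' m hm b) (fun n hn => ?_) hm e
  obtain ⟨y, hy, e1⟩ := hc n hn
  obtain ⟨m, hm, e2⟩ := dec_fpf hH ha h hy
  have hc : m⁻¹ * y ∈ H := mul_mem (inv_mem (hMH hm)) hy
  have e3 : ⁅m⁻¹ * y, b⁆ = 1 := h _ (hH (commutator_mem_commutator hc hb))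
    ((Commute.mul_right (Commute.mul_right (Commute.mul_right e2 hab) (Commute.inv_right e2))
      (Commute.inv_right hab)))
  rw [commutatorElement_eq_one_iff_mul_comm] at e3
  refine ⟨m, hm, ?_⟩
  calc b⁻¹ * m * b * m⁻¹ = b⁻¹ * m * (b * (m⁻¹ * y)) * y⁻¹ := by group
    _ = b⁻¹ * (y * b * y⁻¹) := by rw [← e3]; group
    _ = n := by rw [e1]; group

theorem cyc_of_fpf {H M : Subgroup G} [M.Normal] (hM : M ≠ ⊥)
    (hH : ⁅H, H⁆ ≤ centralizer (M : Set G))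
    (h : ∀ t ∈ H, t ∉ centralizer (M : Set G) → ∀ m ∈ M, t * m = m * t → m = 1) :
    ∃ y ∈ H, ∀ n ∈ H, ∃ k : ℤ, (y ^ k)⁻¹ * n ∈ centralizer (M : Set G) := by
  let f : G →* MulAut M := MulAut.conjNormal
  have hk : ∀ x, f x = 1 ↔ x ∈ centralizer (M : Set G) := fun x => by
    constructor
    · intro e m hm
      have := congrArg Subtype.val (DFunLike.congr_fun e ⟨m, hm⟩)
      exact (mul_inv_eq_iff_eq_mul.1 this).symm
    · intro e
      ext m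
      change x * m * x⁻¹ = m
      rw [← e m m.2, mul_inv_cancel_right]
  have : Nontrivial M := (nontrivial_iff_ne_bot M).2 hM
  have h1 : H24.Fpf (H.map f) := H24.fpf_of_mulAut (H.map f).subtype (by
    rintro ⟨_, t, ht, rfl⟩ h1 m e
    refine Subtype.ext (h t ht (fun hc => h1 (Subtype.ext ((hk t).2 hc))) m m.2 ?_)
    exact mul_inv_eq_iff_eq_mul.1 (congrArg Subtype.val e))
  have : IsMulCommutative (H.map f) := H2.isMulCommutative_of_forall (by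
    rintro _ ⟨a, ha, rfl⟩ _ ⟨b, hb, rfl⟩
    rw [← commutatorElement_eq_one_iff_mul_comm, ← map_commutatorElement, hk]
    exact hH (commutator_mem_commutator ha hb))
  obtain ⟨⟨_, y, hy, rfl⟩, h2⟩ := h1.isCyclic_of_comm.exists_generator
  refine ⟨y, hy, fun n hn => ?_⟩
  obtain ⟨k, e⟩ := h2 ⟨f n, n, hn, rfl⟩
  have e1 : f y ^ k = f n := congrArg Subtype.val e
  exact ⟨k, (hk _).1 (by rw [map_mul, map_inv, map_zpow, e1, inv_mul_cancel])⟩

/-- The kernel does not contain the derived subgroup of `N`. -/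
def Big (N : Subgroup G) (χ : G → ℂ) : Prop := IsIrrCharacter G χ ∧ ∃ x ∈ ⁅N, N⁆, χ x ≠ χ 1

/-- The set-up. -/
structure Hy (N K : Subgroup G) (g : G) (p r : ℕ) : Prop where
  solv : Group.IsSolvable G
  nN : N.Normal
  nK : K.Normal
  hp : p.Prime
  hr : r.Prime
  dK : ⁅N, N⁆ ≤ K
  lt : ∃ x ∈ N, x ∉ K
  pw : ∀ x ∈ N, x ^ p ∈ K
  gr : g ^ r ∈ N
  rd : r ∣ N.index
  fpf : ∀ y ∈ N, ⁅g, y⁆ ∈ K → y ∈ K
  dv : ∀ χ, Big N χ → p ∣ charDegree χ
  cop : ∀ χ, Big N χ → (charDegree χ).Coprime N.index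
  nd : ∀ χ ψ, Big N χ → Big N ψ → charDegree χ ∣ charDegree ψ → charDegree χ = charDegree ψ

theorem mem_map_mk {V H : Subgroup G} [V.Normal] (h : V ≤ H) {x : G} :
    QuotientGroup.mk' V x ∈ H.map (QuotientGroup.mk' V) ↔ x ∈ H := by
  rw [← mem_comap, comap_map_eq, QuotientGroup.ker_mk', sup_eq_left.2 h]

theorem der_le (N : Subgroup G) [N.Normal] : ⁅N, N⁆ ≤ N := commutator_le_left N N

variable {N K : Subgroup G} {g : G} {p r : ℕ}

theorem Big.inflate {V : Subgroup G} [V.Normal] {χ : G ⧸ V → ℂ}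
    (h : Big (N.map (QuotientGroup.mk' V)) χ) : Big N fun x => χ (x : G ⧸ V) := by
  obtain ⟨h1, x, hx, h2⟩ := h
  rw [← map_commutator] at hx
  obtain ⟨x, hx, rfl⟩ := hx
  exact ⟨isIrrCharacter_inflate V h1, x, hx, h2⟩

theorem Hy.quot (h : Hy N K g p r) (V : Subgroup G) [V.Normal] (hV : V ≤ ⁅N, N⁆) :
    Hy (N.map (QuotientGroup.mk' V)) (K.map (QuotientGroup.mk' V)) (QuotientGroup.mk' V g) p r := by
  have hs := QuotientGroup.mk'_surjective V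
  have := h.nN
  have := h.solv
  have hVK := hV.trans h.dK
  have hi : (N.map (QuotientGroup.mk' V)).index = N.index := by
    rw [index_map, QuotientGroup.ker_mk', sup_eq_left.2 (hV.trans (der_le N)),
      MonoidHom.range_eq_top.2 hs, index_top, mul_one]
  refine ⟨inferInstance, h.nN.map _ hs, h.nK.map _ hs, h.hp, h.hr, ?_, ?_, ?_, ?_, hi ▸ h.rd, ?_,
    fun χ hχ => h.dv _ hχ.inflate, fun χ hχ => hi ▸ h.cop _ hχ.inflate,
    fun χ ψ hχ hψ => h.nd _ _ hχ.inflate hψ.inflate⟩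
  · rw [← map_commutator]; exact map_mono h.dK
  · obtain ⟨x, hx, hx'⟩ := h.lt
    exact ⟨_, ⟨x, hx, rfl⟩, fun e => hx' ((mem_map_mk hVK).1 e)⟩
  · rintro _ ⟨x, hx, rfl⟩
    exact ⟨_, h.pw x hx, map_pow _ _ _⟩
  · exact ⟨_, h.gr, map_pow _ _ _⟩
  · rintro _ ⟨y, hy, rfl⟩ e
    rw [← map_commutatorElement, mem_map_mk hVK] at e
    exact ⟨y, h.fpf y hy e, rfl⟩

theorem exists_big {M : Subgroup G} [M.Normal] {θ : M → ℂ} (hθ : IsIrrCharacter M θ) {x : M}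
    (hx : (x : G) ∈ ⁅N, N⁆) (h1 : θ x ≠ θ 1) [Fintype M] :
    ∃ χ, Big N χ ∧ classInner (fun x : M => χ x) θ ≠ 0 := by
  obtain ⟨χ, hχ, h2⟩ := exists_irr_over M hθ
  exact ⟨χ, ⟨hχ, x, hx, fun e => h1 (apply_eq_degree_of_constituent
    (isCharacter_restrict (isCharacter_of_isIrr hχ) M) hθ h2 e)⟩, h2⟩

theorem exists_big' {M : Subgroup G} [M.Normal] {θ : M → ℂ} (hθ : IsIrrCharacter M θ) {x : M}
    (hx : (x : G) ∈ ⁅N, N⁆) (h1 : θ x ≠ θ 1) :
    ∃ χ, Big N χ ∧ (inertia M θ).index * charDegree θ ∣ charDegree χ := by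
  have := Fintype.ofFinite M
  obtain ⟨χ, hχ, h2⟩ := exists_big hθ hx h1
  obtain ⟨e, -, h3⟩ := exists_index_inertia_dvd M hχ.1 hθ h2
  exact ⟨χ, hχ, h3 ▸ Dvd.intro_left e (by ring)⟩

theorem Hy.cop' (h : Hy N K g p r) {M : Subgroup G} [M.Normal] {θ : M → ℂ}
    (hθ : IsIrrCharacter M θ) {x : M} (hx : (x : G) ∈ ⁅N, N⁆) (h1 : θ x ≠ θ 1) :
    (inertia M θ).index.Coprime N.index := by
  obtain ⟨χ, hχ, h2⟩ := exists_big' hθ hx h1
  exact (h.cop χ hχ).coprime_dvd_left ((Dvd.intro _ rfl).trans h2)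

theorem lin_ne {M : Subgroup G} {w : M →* ℂˣ} {x : M} (h : w x ≠ 1) :
    (fun n => (w n : ℂ)) x ≠ (fun n => (w n : ℂ)) 1 := fun e => h (Units.ext (by simpa using e))

theorem Hy.copw (h : Hy N K g p r) {M : Subgroup G} [M.Normal] (hM : M ≤ ⁅N, N⁆) {w : M →* ℂˣ}
    (hw : w ≠ 1) : (stab M w).index.Coprime N.index := by
  obtain ⟨x, hx⟩ := DFunLike.ne_iff.1 hw
  exact h.cop' (isIrrCharacter_monoidHom w) (hM x.2) (lin_ne hx)

theorem exists_der {ψ : N → ℂ} (hψ : IsIrrCharacter N ψ) (h1 : charDegree ψ ≠ 1) :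
    ∃ x : N, (x : G) ∈ ⁅N, N⁆ ∧ ψ x ≠ ψ 1 := by
  by_contra hc
  push Not at hc
  exact h1 ((commutator_le_charKer_iff hψ).1 fun x hx => hc x (by
    rw [← map_subtype_commutator]; exact ⟨x, hx, rfl⟩))

theorem Hy.inv (h : Hy N K g p r) [N.Normal] {ψ : N → ℂ} (hψ : IsIrrCharacter N ψ)
    (h1 : charDegree ψ ≠ 1) : inertia N ψ = ⊤ := by
  obtain ⟨x, hx, h2⟩ := exists_der hψ h1
  exact index_eq_one.1 (Nat.eq_one_of_dvd_coprimes (h.cop' hψ hx h2) dvd_rfl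
    (index_dvd_of_le (le_inertia N (isClassFunction_of_isIrr hψ))))

theorem Hy.ext (h : Hy N K g p r) {ψ : N → ℂ} (hψ : IsIrrCharacter N ψ)
    (h1 : charDegree ψ ≠ 1) : ∃ χ, Big N χ ∧ charDegree χ = charDegree ψ := by
  have := h.nN
  have := Fintype.ofFinite N
  obtain ⟨x, hx, h2⟩ := exists_der hψ h1
  obtain ⟨χ, hχ, h3⟩ := exists_big hψ hx h2
  obtain ⟨e, he, h4⟩ := exists_charDegree_eq_mul N hχ.1 hψ h3
  have : e = 1 := Nat.eq_one_of_dvd_coprimes (h.cop χ hχ) (h4 ▸ Dvd.intro _ rfl) he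
  exact ⟨χ, hχ, by rw [h4, this, one_mul]⟩

theorem Hy.vanish (h : Hy N K g p r) {ψ : N → ℂ} (hψ : IsIrrCharacter N ψ)
    (h1 : charDegree ψ ≠ 1) {a : G} {x : N} (hx : ⁅a, (x : G)⁆ ∉ ⁅N, N⁆) : ψ x = 0 := by
  have hN := h.nN
  have hm : ⁅a, (x : G)⁆ ∈ N := mul_mem (hN.conj_mem _ x.2 a) (inv_mem x.2)
  obtain ⟨μ, hμ, -⟩ := exists_lin le_rfl hm hx
  have e1 := invariant_of_inertia_eq_top (h.inv hψ h1) a x
  have e2 := invariant_of_inertia_eq_top (h.inv (isIrrCharacter_monoidHom_mul hψ μ) (by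
    rwa [charDegree_congr (θ := ψ) (by simp)])) a x
  simp only [e1] at e2
  by_contra h0
  have e3 : μ ⟨a * x * a⁻¹, hN.conj_mem _ x.2 a⟩ = μ x := Units.ext (mul_right_cancel₀ h0 e2)
  exact hμ (by
    rw [show (⟨⁅a, (x : G)⁆, hm⟩ : N) = ⟨a * x * a⁻¹, hN.conj_mem _ x.2 a⟩ * x⁻¹ from rfl,
      map_mul, e3, ← map_mul, mul_inv_cancel, map_one])

theorem comm_mul_mem {V : Subgroup G} [hV : V.Normal] {a x n : G} (hn : n ∈ V) :
    ⁅a, x * n⁆ ∈ V ↔ ⁅a, x⁆ ∈ V := by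
  rw [show ⁅a, x * n⁆ = ⁅a, x⁆ * (x * (a * n * a⁻¹ * n⁻¹) * x⁻¹) by
    simp only [commutatorElement_def]; group]
  exact mul_mem_cancel_right (hV.conj_mem _ (mul_mem (hV.conj_mem _ hn a) (inv_mem hn)) x)

theorem Hy.cam (h : Hy N K g p r) {a x : G} (hx : x ∈ N) (ha : ⁅a, x⁆ ∉ ⁅N, N⁆) {n : G}
    (hn : n ∈ ⁅N, N⁆) : ∃ y ∈ N, y * x * y⁻¹ = x * n := by
  have hN := h.nN
  have hn' := der_le N hn
  have : IsConj (⟨x, hx⟩ : N) (⟨x, hx⟩ * ⟨n, hn'⟩) := (isConj_iff_forall_irr _ _).2 fun ψ => by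
    by_cases h1 : charDegree (ψ : N → ℂ) = 1
    · refine (apply_mul_of_apply_eq_degree' (isCharacter_of_isIrr ψ.2)
        ((commutator_le_charKer_iff ψ.2).2 h1 _ ?_) _).symm
      rw [← map_subtype_commutator] at hn
      obtain ⟨y, hy, e⟩ := hn
      rwa [show (⟨n, hn'⟩ : N) = y from Subtype.ext e.symm]
    · rw [h.vanish ψ.2 h1 (a := a) ha,
        h.vanish ψ.2 h1 (a := a) fun e => ha ((comm_mul_mem hn).1 e)]
  obtain ⟨y, hy⟩ := isConj_iff.1 this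
  exact ⟨y, y.2, congrArg Subtype.val hy⟩

theorem Hy.cam' (h : Hy N K g p r) {x : G} (hx : x ∈ N) (ha : x ∉ K) {n : G}
    (hn : n ∈ ⁅N, N⁆) : ∃ y ∈ N, y * x * y⁻¹ = x * n :=
  h.cam hx (a := g) (fun e => ha (h.fpf x hx (h.dK e))) hn

theorem mem_stab' {M : Subgroup G} [hM : M.Normal] {w : M →* ℂˣ} {t : G} :
    t ∈ stab M w ↔ ∀ (m : G) (hm : m ∈ M),
      w ⟨⁅t, m⁆, mul_mem (hM.conj_mem m hm t) (inv_mem hm)⟩ = 1 := by
  rw [mem_stab]
  have e : ∀ m : M, (⟨⁅t, (m : G)⁆, mul_mem (hM.conj_mem m m.2 t) (inv_mem m.2)⟩ : M) =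
      MulAut.conjNormal t m * m⁻¹ := fun m => rfl
  constructor
  · intro h m hm
    rw [e ⟨m, hm⟩, map_mul, h, ← map_mul, mul_inv_cancel, map_one]
  · intro h m
    have := h m m.2
    rwa [e, map_mul, map_inv, mul_inv_eq_one] at this

theorem Hy.cen (h : Hy N K g p r) {M : Subgroup G} [hM : M.Normal] (hMN : M ≤ ⁅N, N⁆) (a : G)
    {u : G} (hu : u ∈ M) : ⁅a, u⁆ ∈ ⁅N, M⁆ := by
  have := h.nN
  by_contra hc
  obtain ⟨w, h1, h2⟩ := exists_lin (H := M) (V := ⁅N, M⁆)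
    (commutator_mono (hMN.trans (der_le N)) le_rfl)
    (mul_mem (hM.conj_mem u hu a) (inv_mem hu)) hc
  obtain ⟨n, hn, t, ht, rfl⟩ := dec_of_coprime (h.copw hMN (w := w) fun e => h1 (by rw [e]; rfl)) a
  exact h1 (mem_stab'.1 (mul_mem (mem_stab'.2 fun m hm =>
    h2 _ (commutator_mem_commutator hn hm)) ht) u hu)

theorem Hy.norm (h : Hy N K g p r) {T S : Subgroup G} (hT : T.index.Coprime N.index)
    [hS : S.Normal] (h1 : ∀ n ∈ N, ∀ x ∈ S ⊓ T, ⁅n, x⁆ ∈ T) : (S ⊓ T).Normal := by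
  have := h.nN
  refine ⟨fun x hx a => ?_⟩
  obtain ⟨n, hn, t, ht, rfl⟩ := dec_of_coprime hT a
  have h2 : t * x * t⁻¹ ∈ S ⊓ T := ⟨hS.conj_mem _ hx.1 t, T.mul_mem (T.mul_mem ht hx.2) (T.inv_mem ht)⟩
  refine mem_inf.2 ⟨hS.conj_mem _ hx.1 _, ?_⟩
  rw [show n * t * x * (n * t)⁻¹ = ⁅n, t * x * t⁻¹⁆ * (t * x * t⁻¹) by
    simp only [commutatorElement_def]; group]
  exact T.mul_mem (h1 n hn _ h2) h2.2

theorem Hy.mem_K (h : Hy N K g p r) {x : G} (hx : x ∈ N) {m : ℕ} (hm : m.Coprime p)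
    (e : x ^ m ∈ K) : x ∈ K := by
  have := h.nK
  have h1 : (QuotientGroup.mk' K x) ^ m = 1 := by
    rw [← map_pow]; exact (QuotientGroup.eq_one_iff _).2 e
  have h2 : (QuotientGroup.mk' K x) ^ p = 1 := by
    rw [← map_pow]; exact (QuotientGroup.eq_one_iff _).2 (h.pw x hx)
  have := pow_gcd_eq_one.2 ⟨h1, h2⟩
  rw [hm, pow_one] at this
  exact (QuotientGroup.eq_one_iff _).1 this

end Cfsg.Agent.ND
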