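import Cfsg.Agent.ND.A
import Cfsg.Agent.H62.Chief

/-!
Solvable groups without divisibility among character degrees: the derived subgroup of `N` meets
the normal `p`-complement trivially or lies in it.
-/

set_option autoImplicit false
set_option linter.unusedSectionVars false
set_option linter.unusedVariables false

open scoped commutatorElement
open Cfsg Cfsg.Agent.H5 Cfsg.Agent.H6 Cfsg.Agent.H88 Subgroup

namespace Cfsg.Agent.ND

variable {G : Type*} [Group G] [Finite G] {N K L : Subgroup G} {g : G} {p r : ℕ}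

theorem mem_of_cop {H : Subgroup G} {x : G} {a b : ℤ} (h : IsCoprime a b) (ha : x ^ a ∈ H)
    (hb : x ^ b ∈ H) : x ∈ H := by
  obtain ⟨u, v, e⟩ := h
  have := mul_mem (zpow_mem ha u) (zpow_mem hb v)
  rwa [← zpow_mul, ← zpow_mul, ← zpow_add, mul_comm a, mul_comm b, e, zpow_one] at this

theorem mem_of_cop' {H : Subgroup G} {x : G} {a b : ℕ} (h : a.Coprime b) (ha : x ^ a ∈ H)
    (hb : x ^ b ∈ H) : x ∈ H :=
  mem_of_cop (Nat.isCoprime_iff_coprime.2 h) (by simpa using ha) (by simpa using hb)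

theorem exists_ppart (hp : p.Prime) (x : G) : ∃ m j, m.Coprime p ∧ (x ^ m) ^ p ^ j = 1 := by
  obtain ⟨j, m, hm, e⟩ := Nat.exists_eq_pow_mul_and_not_dvd (orderOf_pos x).ne' p hp.ne_one
  exact ⟨m, j, ((Nat.Prime.coprime_iff_not_dvd hp).2 hm).symm, by
    rw [← pow_mul, mul_comm, ← e, pow_orderOf_eq_one]⟩

theorem eq_one_of_conj {a u y : G} {k m : ℕ} (hk : k.Coprime m) (ha : a ^ k = 1) (hu : u ^ m = 1)
    (hc : Commute a u) (e : y * a * y⁻¹ = a * u) : u = 1 := by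
  have h1 : u ^ k = 1 := by
    have := congrArg (· ^ k) e
    simpa only [conj_pow, ha, hc.mul_pow, mul_one, mul_inv_cancel, one_mul, eq_comm] using this
  exact mem_bot.1 (mem_of_cop' hk (mem_bot.2 h1) (mem_bot.2 hu))

theorem comm_l {n a b : G} (h1 : Commute n a) (h2 : Commute n b) : ⁅n * a, b⁆ = ⁅a, b⁆ := by
  have := ((h1.mul_right h2).mul_right h1.inv_right).eq
  calc ⁅n * a, b⁆ = n * (a * b * a⁻¹) * n⁻¹ * b⁻¹ := by simp only [commutatorElement_def]; group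
    _ = _ := by rw [this]; simp only [commutatorElement_def]; group

theorem comm_mod {V : Subgroup G} [V.Normal] {n n' a b : G} (h1 : ⁅n, a⁆ ∈ V)
    (h2 : ⁅n, n' * b⁆ ∈ V) (h3 : ⁅n', a⁆ ∈ V) (h4 : ⁅n', b⁆ ∈ V) :
    ⁅n * a, n' * b⁆ * ⁅a, b⁆⁻¹ ∈ V := by
  have c : ∀ {x y : G}, ⁅x, y⁆ ∈ V → Commute (QuotientGroup.mk' V x) (QuotientGroup.mk' V y) :=
    fun h => commutatorElement_eq_one_iff_commute.1 (by
      rw [← map_commutatorElement]; exact (QuotientGroup.eq_one_iff _).2 h)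
  rw [← QuotientGroup.eq_one_iff, ← QuotientGroup.mk'_apply, map_mul, map_inv, mul_inv_eq_one,
    map_commutatorElement, map_commutatorElement, map_mul, comm_l (c h1) (c h2),
    ← commutatorElement_inv, map_mul, comm_l (c h4) (c h3), commutatorElement_inv]

theorem Hy.key (h : Hy N K g p r) {T : Subgroup G} (hT : T.index.Coprime N.index)
    (h1 : ⁅N, N⁆ ≤ T) {χ : G → ℂ} (hχ : Big N χ)
    (h2 : ∀ a ∈ N ⊓ T, ∀ b ∈ N ⊓ T, χ ⁅a, b⁆ = χ 1) : charDegree χ ∣ T.index := by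
  have := h.nN
  have := h.norm hT (S := N) fun n hn x hx => h1 (commutator_mem_commutator hn hx.1)
  have h3 := ito_ker hχ.1 _ h2
  rw [← relIndex_mul_index (inf_le_left : N ⊓ T ≤ N), inf_relIndex_left,
    relIndex_eq_of_coprime hT] at h3
  exact (h.cop χ hχ).dvd_of_dvd_mul_right h3

theorem comm_of_bot {A B : Subgroup G} (h : ⁅A, B⁆ = ⊥) {a b : G} (ha : a ∈ A) (hb : b ∈ B) :
    Commute a b :=
  commutatorElement_eq_one_iff_commute.1 (mem_bot.1 (h ▸ commutator_mem_commutator ha hb))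

theorem bot_of_comm {A B : Subgroup G} (h : ∀ a ∈ A, ∀ b ∈ B, Commute a b) : ⁅A, B⁆ = ⊥ :=
  eq_bot_iff.2 (commutator_le.2 fun a ha b hb =>
    mem_bot.2 (commutatorElement_eq_one_iff_commute.2 (h a ha b hb)))

theorem Hy.cl2 (h : Hy N K g p r) (h4 : ⁅N, ⁅N, ⁅N, N⁆⁆⁆ = ⊥) : ⁅N, ⁅N, N⁆⁆ = ⊥ := by
  have hN := h.nN
  have hN1 : (⁅N, N⁆).Normal := inferInstance
  have z : ∀ (a b : G), ∀ u ∈ ⁅N, N⁆, Commute b ⁅a, u⁆ := fun a b u hu =>
    commutatorElement_eq_one_iff_commute.1 (mem_bot.1 (h4 ▸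
      h.cen (commutator_le_right _ _) b (h.cen le_rfl a hu)))
  have hom : ∀ (a b : G), ∀ u ∈ ⁅N, N⁆, ⁅a * b, u⁆ = ⁅b, u⁆ * ⁅a, u⁆ := fun a b u hu => by
    calc ⁅a * b, u⁆ = a * ⁅b, u⁆ * a⁻¹ * ⁅a, u⁆ := by simp only [commutatorElement_def]; group
      _ = _ := by rw [(z b a u hu).eq, mul_inv_cancel_right]
  have cj : ∀ (a b : G), ∀ u ∈ ⁅N, N⁆, ⁅a * b * a⁻¹, u⁆ = ⁅b, u⁆ := fun a b u hu => by
    rw [hom _ _ u hu, hom _ _ u hu, (z b _ u hu).left_comm, ← hom _ _ u hu, mul_inv_cancel,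
      commutatorElement_one_left, mul_one]
  have R : ∀ (a b : G), ∀ u ∈ ⁅N, N⁆, Commute ⁅a, b⁆ u := fun a b u hu => by
    rw [← commutatorElement_eq_one_iff_commute, commutatorElement_def a b, hom _ _ u hu,
      cj _ _ u hu, ← hom _ _ u hu, mul_inv_cancel, commutatorElement_one_left]
  have R1 : ∀ v ∈ ⁅N, N⁆, ∀ u ∈ ⁅N, N⁆, Commute v u := fun v hv u hu =>
    mem_centralizer_singleton_iff.1 ((commutator_le (H₃ := centralizer {u})).2
      (fun a _ b _ => mem_centralizer_singleton_iff.2 (R a b u hu)) hv)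
  have sy : ∀ x ∈ N, (∀ u ∈ ⁅N, N⁆, Commute x u) → ∀ y ∈ N, ∀ w ∈ N,
      ⁅w, ⁅x, y⁆⁆ = ⁅y, ⁅x, w⁆⁆ := fun x hx hc y hy w hw => by
    have hu := commutator_mem_commutator hx hy
    have hv := commutator_mem_commutator hx hw
    have e1 : ⁅x, y * w⁆ = ⁅x, w * y⁆ := by
      have := (hc _ (commutator_mem_commutator (inv_mem hy) (inv_mem hw))).eq
      calc ⁅x, y * w⁆ = x * (w * y) * (⁅y⁻¹, w⁻¹⁆ * x⁻¹ * ⁅y⁻¹, w⁻¹⁆⁻¹) * (w * y)⁻¹ := by
            simp only [commutatorElement_def]; group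
        _ = x * (w * y) * (x⁻¹ * (x * ⁅y⁻¹, w⁻¹⁆) * x⁻¹ * ⁅y⁻¹, w⁻¹⁆⁻¹) * (w * y)⁻¹ := by group
        _ = _ := by rw [this]; simp only [commutatorElement_def]; group
    have e2 : ∀ y w : G, ⁅x, y * w⁆ = ⁅x, y⁆ * ⁅y, ⁅x, w⁆⁆ * ⁅x, w⁆ := fun y w => by
      simp only [commutatorElement_def]; group
    rw [e2, e2, (z _ _ _ hv).eq, (z _ _ _ hu).eq, mul_assoc, mul_assoc, (R1 _ hu _ hv).eq] at e1
    exact (mul_right_cancel e1).symm
  obtain ⟨n, hn, hnK⟩ := h.lt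
  have hm : ∀ y ∈ N, ⁅g, y⁆ ∈ N := fun y hy => mul_mem (hN.conj_mem y hy g) (inv_mem hy)
  have hx := hm n hn
  have hK : ⁅g, ⁅g, n⁆⁆ ∉ K := fun e => hnK (h.fpf n hn (h.fpf _ hx e))
  have hR := R g n
  generalize ⁅g, n⁆ = x at hx hK hR
  refine bot_of_comm fun w hw u hu => ?_
  obtain ⟨y, hy, e⟩ := h.cam' (inv_mem (hm x hx)) (fun e => hK (inv_mem_iff.1 e)) hu
  have hy' := hN.conj_mem' y hy g
  have hw' := hN.conj_mem' w hw g
  have a1 := commutator_mem_commutator hx hy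
  have a2 := commutator_mem_commutator (hN.conj_mem x hx g) hy
  have e1 : ⁅w, ⁅g * x * g⁻¹, y⁆⁆ = ⁅w, ⁅x, y⁆⁆ := by
    calc ⁅w, ⁅g * x * g⁻¹, y⁆⁆ = g * ⁅g⁻¹ * w * g, ⁅x, g⁻¹ * y * g⁆⁆ * g⁻¹ := by
          simp only [commutatorElement_def]; group
      _ = ⁅g⁻¹ * w * g⁻¹⁻¹, ⁅x, g⁻¹ * y * g⁆⁆ := by
          rw [(z _ g _ (commutator_mem_commutator hx hy')).eq, mul_inv_cancel_right, inv_inv]
      _ = ⁅g⁻¹ * y * g⁻¹⁻¹, ⁅x, w⁆⁆ := by
          rw [cj _ _ _ (commutator_mem_commutator hx hy'), sy x hx hR _ hy' w hw, inv_inv]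
      _ = _ := by rw [cj _ _ _ (commutator_mem_commutator hx hw), sy x hx hR _ hy w hw]
  have c1 : Commute (g * x * g⁻¹) ⁅x, y⁆ := by
    have := hR _ (hN1.conj_mem' _ a1 g)
    calc g * x * g⁻¹ * ⁅x, y⁆ = g * (x * (g⁻¹ * ⁅x, y⁆ * g)) * g⁻¹ := by group
      _ = _ := by rw [this.eq]; group
  have e2 : u = ⁅x, y⁆⁻¹ * ⁅g * x * g⁻¹, y⁆ := by
    calc u = ⁅g, x⁆ * (y * ⁅g, x⁆⁻¹ * y⁻¹) := by rw [e]; group
      _ = g * x * g⁻¹ * (x⁻¹ * ⁅x, y⁆⁻¹ * x) * (g * x * g⁻¹)⁻¹ * ⁅g * x * g⁻¹, y⁆ := by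
          simp only [commutatorElement_def]; group
      _ = _ := by
          rw [mul_assoc x⁻¹, ← (hR _ a1).inv_right.eq, inv_mul_cancel_left, c1.inv_right.eq,
            mul_inv_cancel_right]
  rw [e2]
  generalize ⁅g * x * g⁻¹, y⁆ = v at e1
  generalize ⁅x, y⁆ = v' at e1
  calc w * (v'⁻¹ * v) = v'⁻¹ * ⁅w, v'⁆⁻¹ * ⁅w, v⁆ * v * w := by
        simp only [commutatorElement_def]; group
    _ = _ := by rw [e1]; group

/-- `L` is a normal `p`-complement of `N`. -/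
structure PC (N L : Subgroup G) (p : ℕ) : Prop where
  nL : L.Normal
  le : L ≤ N
  cop : ∀ x ∈ L, ∃ m, m.Coprime p ∧ x ^ m = 1
  pw : ∀ x ∈ N, ∃ j, x ^ p ^ j ∈ L

theorem PC.quot (h : PC N L p) (V : Subgroup G) [V.Normal] :
    PC (N.map (QuotientGroup.mk' V)) (L.map (QuotientGroup.mk' V)) p := by
  refine ⟨h.nL.map _ (QuotientGroup.mk'_surjective V), map_mono h.le, ?_, ?_⟩
  · rintro _ ⟨x, hx, rfl⟩
    obtain ⟨m, h1, h2⟩ := h.cop x hx
    exact ⟨m, h1, by rw [← map_pow, h2, map_one]⟩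
  · rintro _ ⟨x, hx, rfl⟩
    obtain ⟨j, h1⟩ := h.pw x hx
    exact ⟨j, _, h1, map_pow _ _ _⟩

theorem Hy.exists_pc (h : Hy N K g p r) : ∃ L, PC N L p := by
  have hN := h.nN
  have := Fact.mk h.hp
  have h1 := H3.hasNormalPComplement_iff_mul.1 (hasNormalPComplement_of_forall_dvd_degree h.hp N
    fun χ h1 h2 => h.dv χ ⟨h1, h2⟩)
  refine ⟨⟨⟨⟨{x | x ∈ N ∧ (orderOf x).Coprime p}, fun {a b} ha hb => ⟨mul_mem ha.1 hb.1, ?_⟩⟩,
    one_mem _, by simp⟩, fun {a} ha => ⟨inv_mem ha.1, by simpa using ha.2⟩⟩,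
    ⟨fun a ha b => ⟨hN.conj_mem a ha.1 b, ?_⟩⟩, fun a ha => ha.1,
    fun a ha => ⟨_, ha.2, pow_orderOf_eq_one a⟩, fun a ha => ?_⟩
  · simpa using h1 ⟨a, ha.1⟩ ⟨b, hb.1⟩ (by simpa using ha.2) (by simpa using hb.2)
  · have := (MulAut.conj b).orderOf_eq a
    exact this ▸ ha.2
  · obtain ⟨m, j, h2, h3⟩ := exists_ppart h.hp a
    exact ⟨j, pow_mem ha _, h2.coprime_dvd_left (orderOf_dvd_of_pow_eq_one (by
      rw [← pow_mul, mul_comm, pow_mul, h3]))⟩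

theorem map_mk_bot {V D : Subgroup G} [V.Normal] : D.map (QuotientGroup.mk' V) = ⊥ ↔ D ≤ V := by
  rw [Subgroup.map_eq_bot_iff, QuotientGroup.ker_mk']

theorem Hy.cl2' (h : Hy N K g p r) (hL : PC N L p) (h0 : ⁅N, N⁆ ⊓ L = ⊥) : ⁅N, ⁅N, N⁆⁆ = ⊥ := by
  have hN := h.nN
  have := hL.nL
  have := Fact.mk h.hp
  have h1 := (h.quot ⁅N, ⁅N, ⁅N, N⁆⁆⁆ ((commutator_le_right _ _).trans
    (commutator_le_right _ _))).cl2 (by simp only [← map_commutator, map_mk_bot, le_refl])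
  simp only [← map_commutator, map_mk_bot] at h1
  have h2 := H62.eq_bot_of_le_comm (p := p) (P := N.map (QuotientGroup.mk' L))
    (U := ⁅N, ⁅N, N⁆⁆.map (QuotientGroup.mk' L)) (by
      rintro ⟨_, x, hx, rfl⟩
      obtain ⟨j, hj⟩ := hL.pw x hx
      exact ⟨j, Subtype.ext ((QuotientGroup.eq_one_iff (x ^ p ^ j)).2 hj)⟩)
    (map_mono (commutator_le_left _ _))
    (by rw [← map_commutator]; exact map_mono (h1.trans (Subgroup.commutator_comm _ _).le))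
  exact eq_bot_iff.2 (h0 ▸ le_inf (commutator_le_right _ _) (map_mk_bot.1 h2))

theorem Hy.cyc (h : Hy N K g p r) (hL : PC N L p) (h0 : ⁅N, N⁆ ⊓ L = ⊥) {y : G} (hy : y ∈ N)
    (hC : ∀ n ∈ N, ∃ k : ℤ, ∃ m, m.Coprime p ∧ ⁅g, ((y ^ k)⁻¹ * n) ^ m⁆ ∈ ⁅N, N⁆) :
    ⁅N, N⁆ = ⊥ := by
  have hN := h.nN
  have := hL.nL
  have hz := h.cl2' hL h0
  have hx : y⁻¹ * (g * y * g⁻¹) ∈ N := mul_mem (inv_mem hy) (hN.conj_mem y hy g)
  let Z := centralizer {y⁻¹ * (g * y * g⁻¹)}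
  have hZ : ∀ c ∈ N, ∀ m : ℤ, IsCoprime m p → c ^ m ∈ Z → c ∈ Z := fun c hc m hm e => by
    obtain ⟨j, hj⟩ := hL.pw c hc
    refine mem_of_cop (hm.pow_right (n := j)) e (mem_centralizer_singleton_iff.2 ?_)
    rw [← Nat.cast_pow, zpow_natCast, ← commutatorElement_eq_one_iff_mul_comm, ← mem_bot, ← h0]
    exact ⟨commutator_mem_commutator (pow_mem hc _) hx,
      commutator_le_left _ _ (commutator_mem_commutator hj hx)⟩
  have hP : ∀ n ∈ N, ∃ k : ℤ, (y ^ k)⁻¹ * n ∈ Z ∧ (y ^ k)⁻¹ * n ∈ K := fun n hn => by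
    obtain ⟨k, m, hm, e⟩ := hC n hn
    have hc : (y ^ k)⁻¹ * n ∈ N := mul_mem (inv_mem (zpow_mem hy k)) hn
    refine ⟨k, hZ _ hc m (Nat.isCoprime_iff_coprime.2 hm) ?_,
      h.mem_K hc hm (h.fpf _ (pow_mem hc m) (h.dK e))⟩
    have hc' := pow_mem hc m
    rw [zpow_natCast, mem_centralizer_singleton_iff]
    generalize ((y ^ k)⁻¹ * n) ^ m = c at e hc'
    have e1 : Commute g ⁅y, c⁆ := commutatorElement_eq_one_iff_commute.1 (mem_bot.1 (hz ▸
      h.cen le_rfl g (commutator_mem_commutator hy hc')))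
    have e2 : ⁅c, g * y * g⁻¹⁆ = ⁅c, y⁆ := by
      rw [← comm_l (comm_of_bot hz hc' e).symm (comm_of_bot hz (hN.conj_mem y hy g) e).symm]
      calc ⁅⁅g, c⁆ * c, g * y * g⁻¹⁆ = g * ⁅y, c⁆⁻¹ * g⁻¹ := by
            simp only [commutatorElement_def]; group
        _ = _ := by rw [e1.inv_right.eq, mul_inv_cancel_right, commutatorElement_inv]
    calc c * (y⁻¹ * (g * y * g⁻¹)) = y⁻¹ * ⁅c, y⁆⁻¹ * ⁅c, g * y * g⁻¹⁆ * (g * y * g⁻¹) * c := by
          simp only [commutatorElement_def]; group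
      _ = _ := by rw [e2]; group
  have hxK : y⁻¹ * (g * y * g⁻¹) ∉ K := fun e => by
    obtain ⟨n, hn, hnK⟩ := h.lt
    obtain ⟨k, -, e1⟩ := hP n hn
    have := h.fpf _ (inv_mem hy) (by
      simpa [commutatorElement_def, mul_assoc] using inv_mem e)
    exact hnK (by simpa using mul_mem (zpow_mem (inv_mem_iff.1 this) k) e1)
  have hyZ : y ∈ Z := by
    obtain ⟨k, e1, e2⟩ := hP _ hx
    refine hZ y hy k ?_ ?_
    · refine ((Nat.prime_iff_prime_int.1 h.hp).coprime_iff_not_dvd.2 ?_).symm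
      rintro ⟨l, rfl⟩
      refine hxK ((mul_mem_cancel_left (inv_mem ?_)).1 e2)
      rw [zpow_mul, zpow_natCast]
      exact zpow_mem (h.pw y hy) l
    · exact inv_mem_iff.1 ((mul_mem_cancel_right (mem_centralizer_singleton_iff.2 rfl)).1 e1)
  refine eq_bot_iff.2 fun u hu => mem_bot.2 ?_
  obtain ⟨a, ha, e⟩ := h.cam' hx hxK hu
  obtain ⟨k, e1, -⟩ := hP a ha
  have := mem_centralizer_singleton_iff.1 ((mul_mem_cancel_left (inv_mem (zpow_mem hyZ k))).1 e1)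
  rw [this, mul_inv_cancel_right] at e
  exact left_eq_mul.1 e

theorem exists_ne_one {M : Subgroup G} {V : Subgroup G} (hV : ⁅M, M⁆ ≤ V) (h : ¬ M ≤ V) :
    ∃ w : M →* ℂˣ, w ≠ 1 ∧ ∀ v : M, (v : G) ∈ V → w v = 1 := by
  obtain ⟨x, hx, hxV⟩ := SetLike.not_le_iff_exists.1 h
  obtain ⟨w, h1, h2⟩ := exists_lin hV hx hxV
  exact ⟨w, fun e => h1 (by rw [e]; rfl), h2⟩

theorem ker_of_stab {M X : Subgroup G} [M.Normal] {w : M →* ℂˣ} (h : X ≤ stab M w) (v : M)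
    (hv : (v : G) ∈ ⁅X, M⁆) : w v = 1 := by
  obtain ⟨u, hu, e⟩ := (commutator_le (H₃ := w.ker.map M.subtype)).2
    (fun a ha m hm => ⟨_, mem_stab'.1 (h ha) m hm, rfl⟩) hv
  rwa [← Subtype.ext e]

theorem cen_of_stab {M X : Subgroup G} [M.Normal] [X.Normal]
    (hmin : ∀ Y : Subgroup G, Y.Normal → Y ≤ M → Y = ⊥ ∨ Y = M) {w : M →* ℂˣ} (hw : w ≠ 1)
    (h : X ≤ stab M w) : X ≤ centralizer (M : Set G) := by
  rcases hmin ⁅X, M⁆ inferInstance (commutator_le_right _ _) with e | e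
  · exact commutator_eq_bot_iff_le_centralizer.1 e
  · exact (hw (MonoidHom.ext fun v => ker_of_stab h v (e.ge v.2))).elim

theorem fpf_of_stab {M : Subgroup G} [hM : M.Normal] (hab : ⁅M, M⁆ = ⊥) {t : G}
    (h : ∀ w : M →* ℂˣ, t ∈ stab M w → w = 1) : ∀ m ∈ M, t * m = m * t → m = 1 := by
  intro m hm
  refine fpf_of_surj (fun m hm => hM.conj_mem' m hm t) (fun n hn => ?_) hm
  let V : Subgroup G := ⟨⟨⟨{n | ∃ m ∈ M, t⁻¹ * m * t * m⁻¹ = n}, by
    rintro _ _ ⟨a, ha, rfl⟩ ⟨b, hb, rfl⟩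
    refine ⟨a * b, mul_mem ha hb, ?_⟩
    calc _ = t⁻¹ * a * t * (t⁻¹ * b * t * b⁻¹ * a⁻¹) := by group
      _ = _ := by
        rw [(comm_of_bot hab (mul_mem (hM.conj_mem' b hb t) (inv_mem hb)) (inv_mem ha)).eq]
        group⟩, 1, one_mem _, by group⟩, by
    rintro _ ⟨a, ha, rfl⟩
    refine ⟨a⁻¹, inv_mem ha, ?_⟩
    rw [(comm_of_bot hab (hM.conj_mem' _ (inv_mem ha) t) (inv_mem (inv_mem ha))).eq]
    group⟩
  by_contra hc
  obtain ⟨w, h1, h2⟩ := exists_lin (V := V) (hab.le.trans bot_le) hn hc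
  exact h1 (by
    rw [h w (inv_mem_iff.1 (mem_stab'.2 fun m hm =>
      h2 _ ⟨m, hm, by simp [commutatorElement_def]⟩))]; rfl)

theorem exists_big_ker {C : Subgroup G} [C.Normal] (h : ¬ ⁅N, N⁆ ≤ C) :
    ∃ χ, Big N χ ∧ ∀ c ∈ C, χ c = χ 1 := by
  obtain ⟨x, hx, hxC⟩ := SetLike.not_le_iff_exists.1 h
  by_contra hc
  refine hxC ((QuotientGroup.eq_one_iff x).1 (eq_one_of_forall_irr fun χ hχ => ?_))
  by_contra h1
  exact hc ⟨fun x => χ (x : G ⧸ C), ⟨isIrrCharacter_inflate C hχ, x, hx, h1⟩, fun c hc => by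
    simp only [(QuotientGroup.eq_one_iff c).2 hc, QuotientGroup.mk_one]⟩

theorem Hy.caseA (h : Hy N K g p r) (hL : PC N L p) (hM : ⁅N, N⁆ ⊓ L ≠ ⊥)
    (hmin : ∀ Y : Subgroup G, Y.Normal → Y ≤ ⁅N, N⁆ ⊓ L → Y = ⊥ ∨ Y = ⁅N, N⁆ ⊓ L) :
    ⁅N, N⁆ ≤ L := by
  have hN := h.nN
  have := hL.nL
  have := h.solv
  obtain ⟨M, e⟩ : ∃ M, M = ⁅N, N⁆ ⊓ L := ⟨_, rfl⟩
  have : M.Normal := e ▸ inferInstance
  rw [← e] at hM hmin
  have hMN : M ≤ ⁅N, N⁆ := e.le.trans inf_le_left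
  have hML : M ≤ L := e.le.trans inf_le_right
  have hab : ⁅M, M⁆ = ⊥ := bot_of_comm fun a ha b hb => H2.mul_comm_of_mem
    (H2.minimal_normal_elementary_abelian M inferInstance hM hmin).1 ha hb
  have hq := h.quot M hMN
  have h0 : ⁅N.map (QuotientGroup.mk' M), N.map (QuotientGroup.mk' M)⁆ ⊓
      L.map (QuotientGroup.mk' M) = ⊥ := by
    rw [← map_commutator, eq_bot_iff]
    rintro _ ⟨⟨x, hx, rfl⟩, h2⟩
    exact (QuotientGroup.eq_one_iff x).2 (e.ge ⟨hx, (mem_map_mk hML).1 h2⟩)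
  have h3 := hq.cl2' (hL.quot M) h0
  simp only [← map_commutator, map_mk_bot] at h3
  by_cases hC : ⁅N, N⁆ ≤ centralizer (M : Set G)
  · have hs : ∀ w : M →* ℂˣ, centralizer (M : Set G) ≤ stab M w := fun w c hc =>
      mem_stab'.2 fun m hm => by
        rw [show (⟨⁅c, m⁆, _⟩ : M) = 1 from
          Subtype.ext (commutatorElement_eq_one_iff_mul_comm.2 (hc m hm).symm), map_one]
    obtain ⟨y, hy, h4⟩ := cyc_of_fpf hM hC fun t ht htC => fpf_of_stab hab fun w hw => by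
      by_contra h1
      have := h.norm (h.copw hMN h1) (S := N) fun n hn x hx =>
        hs w (hC (commutator_mem_commutator hn hx.1))
      exact htC (cen_of_stab (X := N ⊓ stab M w) hmin h1 inf_le_right ⟨ht, hw⟩)
    have h5 := hq.cyc (hL.quot M) h0 (y := QuotientGroup.mk' M y) ⟨y, hy, rfl⟩ (by
      rintro _ ⟨n, hn, rfl⟩
      obtain ⟨k, hk⟩ := h4 n hn
      obtain ⟨m, j, h6, h7⟩ := exists_ppart h.hp ((y ^ k)⁻¹ * n)
      refine ⟨k, m, h6, ?_⟩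
      rw [← map_zpow, ← map_inv, ← map_mul, ← map_pow, ← map_commutatorElement, ← map_commutator]
      refine mem_map_of_mem _ ?_
      by_contra h8
      refine hM (eq_bot_iff.2 fun u hu => mem_bot.2 ?_)
      obtain ⟨a, -, ha⟩ := h.cam (pow_mem (mul_mem (inv_mem (zpow_mem hy k)) hn) m) h8 (hMN hu)
      obtain ⟨l, h9, h10⟩ := hL.cop u (hML hu)
      exact eq_one_of_conj (h9.pow_right j).symm h7 h10 (pow_mem hk m u hu).symm ha)
    rw [← map_commutator, map_mk_bot] at h5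
    exact h5.trans hML
  · exfalso
    obtain ⟨w, hw, -⟩ := exists_ne_one hab.le fun e => hM (le_bot_iff.1 e)
    have hT := h.copw hMN hw
    have h4 := h3.trans (le_stab M w)
    have := h.norm hT (S := ⁅N, N⁆) fun n hn x hx => h4 (commutator_mem_commutator hn hx.1)
    have h5 := cen_of_stab (X := ⁅N, N⁆ ⊓ stab M w) hmin hw inf_le_right
    obtain ⟨χ, hχ, h6⟩ := exists_big_ker hC
    have hd : (⁅N, N⁆ ⊔ stab M w).index ∣ (stab M w).index := index_dvd_of_le le_sup_right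
    have h7 := h.key (hT.coprime_dvd_left hd) le_sup_left hχ fun a ha b hb => by
      refine h6 _ (h5 ⟨commutator_mem_commutator ha.1 hb.1, ?_⟩)
      obtain ⟨n, hn, t, ht, rfl⟩ := mem_sup_of_normal_left.1 ha.2
      obtain ⟨n', hn', t', ht', rfl⟩ := mem_sup_of_normal_left.1 hb.2
      have c : ∀ {u z}, u ∈ ⁅N, N⁆ → z ∈ N → ⁅u, z⁆ ∈ M := fun hu hz =>
        h3 ((Subgroup.commutator_comm _ _).le (commutator_mem_commutator hu hz))
      have a1 := (mul_mem_cancel_left (der_le N hn)).1 ha.1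
      have a2 := (mul_mem_cancel_left (der_le N hn')).1 hb.1
      exact (mul_mem_cancel_right (inv_mem (commutator_le_self _
        (commutator_mem_commutator ht ht')))).1
        (le_stab M w (comm_mod (c hn a1) (c hn hb.1) (c hn' a1) (c hn' a2)))
    obtain ⟨x, hx⟩ := DFunLike.ne_iff.1 hw
    obtain ⟨ψ, hψ, h8⟩ := exists_big' (isIrrCharacter_monoidHom w) (hMN x.2) (lin_ne hx)
    have h9 : (stab M w).index ∣ charDegree ψ := (Dvd.intro _ rfl).trans h8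
    rw [← h.nd χ ψ hχ hψ (h7.trans (hd.trans h9))] at h9
    have := eq_of_le_of_index_le (le_sup_right : stab M w ≤ ⁅N, N⁆ ⊔ stab M w)
      (Nat.le_of_dvd (Nat.pos_of_ne_zero index_ne_zero_of_finite) (h9.trans h7))
    exact hC fun x hx => h5 ⟨hx, this.ge (mem_sup_left hx)⟩

theorem min_quot {M V : Subgroup G} (h : IsChiefFactor M V) [V.Normal] :
    M.map (QuotientGroup.mk' V) ≠ ⊥ ∧ ∀ Y : Subgroup (G ⧸ V), Y.Normal →
      Y ≤ M.map (QuotientGroup.mk' V) → Y = ⊥ ∨ Y = M.map (QuotientGroup.mk' V) := by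
  have hs := QuotientGroup.mk'_surjective V
  refine ⟨fun e => h.1.not_ge (map_mk_bot.1 e), fun Y hY hle => ?_⟩
  have hV : V ≤ Y.comap (QuotientGroup.mk' V) := fun v hv => by
    rw [mem_comap, QuotientGroup.mk'_apply, (QuotientGroup.eq_one_iff v).2 hv]; exact one_mem _
  rcases h.2.2.2 _ (hY.comap _) hV (fun x hx => (mem_map_mk h.1.le).1 (hle hx)) with e | e
  · left; rw [← map_comap_eq_self_of_surjective hs Y, e, map_mk_bot]
  · right; rw [← map_comap_eq_self_of_surjective hs Y, e]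

theorem Hy.dich (h : Hy N K g p r) (hL : PC N L p) : ⁅N, N⁆ ⊓ L = ⊥ ∨ ⁅N, N⁆ ≤ L := by
  have hN := h.nN
  have := hL.nL
  refine or_iff_not_imp_left.2 fun hM => ?_
  obtain ⟨V, hV, -⟩ := H62.exists_chief_below inferInstance inferInstance (bot_lt_iff_ne_bot.2 hM)
  have := hV.2.2.1
  have h1 := hV.1.le.trans inf_le_left
  have h2 := hV.1.le.trans inf_le_right
  have e : ⁅N.map (QuotientGroup.mk' V), N.map (QuotientGroup.mk' V)⁆ ⊓
      L.map (QuotientGroup.mk' V) = (⁅N, N⁆ ⊓ L).map (QuotientGroup.mk' V) := by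
    rw [← map_commutator]
    refine le_antisymm ?_ (le_inf (map_mono inf_le_left) (map_mono inf_le_right))
    rintro _ ⟨⟨x, hx, rfl⟩, h3⟩
    exact ⟨x, ⟨hx, (mem_map_mk h2).1 h3⟩, rfl⟩
  have h3 := (h.quot V h1).caseA (hL.quot V) (e ▸ (min_quot hV).1) (e ▸ (min_quot hV).2)
  rw [← map_commutator] at h3
  exact fun x hx => (mem_map_mk h2).1 (h3 ⟨x, hx, rfl⟩)

theorem Hy.case1 (h : Hy N K g p r) (hL : PC N L p) (h0 : ⁅N, N⁆ ⊓ L = ⊥) {χ ψ : G → ℂ}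
    (hχ : Big N χ) (hψ : Big N ψ) : charDegree χ = charDegree ψ := by
  have hN := h.nN
  have := hL.nL
  have := Fact.mk h.hp
  have : (L.subgroupOf N).Normal := inferInstance
  obtain ⟨k, hk⟩ := IsPGroup.exists_card_eq (p := p) (G := N ⧸ L.subgroupOf N) fun x => by
    obtain ⟨x, rfl⟩ := QuotientGroup.mk_surjective x
    obtain ⟨j, hj⟩ := hL.pw x x.2
    exact ⟨j, (QuotientGroup.eq_one_iff (x ^ p ^ j)).2 hj⟩
  have key : ∀ χ, Big N χ → ∃ i, charDegree χ = p ^ i := fun χ hχ => by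
    have h1 := charDegree_dvd_index_of_comm hχ.1 L fun a ha b hb => by
      rw [← commutatorElement_eq_one_iff_mul_comm, ← mem_bot, ← h0]
      exact ⟨commutator_mem_commutator (hL.le ha) (hL.le hb),
        commutator_le_self _ (commutator_mem_commutator ha hb)⟩
    rw [← relIndex_mul_index hL.le, relIndex, index_eq_card, hk] at h1
    obtain ⟨i, -, e⟩ := (Nat.dvd_prime_pow h.hp).1 ((h.cop χ hχ).dvd_of_dvd_mul_right h1)
    exact ⟨i, e⟩
  obtain ⟨i, hi⟩ := key χ hχ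
  obtain ⟨j, hj⟩ := key ψ hψ
  rcases le_total i j with e | e
  · exact h.nd χ ψ hχ hψ (by rw [hi, hj]; exact pow_dvd_pow p e)
  · exact (h.nd ψ χ hψ hχ (by rw [hi, hj]; exact pow_dvd_pow p e)).symm

end Cfsg.Agent.ND
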