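import Cfsg.Agent.ND.B
import Cfsg.Agent.H82.Conj

/-!
Solvable groups without divisibility among character degrees: the derived subgroup of `N` is a
`p'`-group. Stabilisers of its linear characters.
-/

set_option autoImplicit false
set_option linter.unusedSectionVars false
set_option linter.unusedVariables false

open scoped commutatorElement
open Cfsg Cfsg.Agent.H5 Cfsg.Agent.H6 Cfsg.Agent.H88 Subgroup

namespace Cfsg.Agent.ND

variable {G : Type*} [Group G] [Finite G] {N K M : Subgroup G} {g : G} {p r : ℕ}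

attribute [-instance] MonoidHom.instInv

theorem inv_ap (w : M →* ℂˣ) (n : M) : w⁻¹ n = (w n)⁻¹ := rfl

theorem cg1 {A : Type*} [CommGroup A] {a b c d : A} (h : a * b = c * d) : a * c⁻¹ = b⁻¹ * d := by
  rw [mul_inv_eq_iff_eq_mul, mul_assoc, eq_inv_mul_iff_mul_eq, mul_comm, h, mul_comm]

theorem cg2 {A : Type*} [CommGroup A] {a b c d : A} (h : a * c⁻¹ = b * d⁻¹) :
    a * b⁻¹ = c * d⁻¹ := by
  rw [mul_inv_eq_iff_eq_mul.1 h, mul_right_comm, mul_comm b, mul_inv_cancel_right, mul_comm]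

/-- Conjugation on linear characters of a normal subgroup. -/
def act [M.Normal] (a : G) : (M →* ℂˣ) →* (M →* ℂˣ) where
  toFun w := w.comp (MulAut.conjNormal a).toMonoidHom
  map_one' := rfl
  map_mul' _ _ := rfl

theorem act_mul [M.Normal] (a b : G) (w : M →* ℂˣ) : act (a * b) w = act b (act a w) := by
  ext n; simp [act]

theorem act_one [M.Normal] (w : M →* ℂˣ) : act (1 : G) w = w := by
  ext n; simp [act]

theorem act_inj [M.Normal] (a : G) {w w' : M →* ℂˣ} (h : act a w = act a w') : w = w' := by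
  rw [← act_one w, ← act_one w', ← mul_inv_cancel a, act_mul, act_mul, h]

theorem mem_act [M.Normal] {a : G} {w : M →* ℂˣ} : a ∈ stab M w ↔ act a w = w :=
  mem_stab.trans ⟨fun h => MonoidHom.ext h, fun h n => DFunLike.congr_fun h n⟩

theorem conj_comm [N.Normal] {θ : ↥⁅N, N⁆ → ℂ} (hθ : IsClassFunction _ θ) {s t : G} (hs : s ∈ N)
    (ht : t ∈ N) : conjChar _ s (conjChar _ t θ) = conjChar _ t (conjChar _ s θ) := by
  rw [← conjChar_mul, ← conjChar_mul, show t * s = ⁅t, s⁆ * (s * t) by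
    simp only [commutatorElement_def]; group, conjChar_mul _ ⁅t, s⁆,
    conjChar_of_mem _ hθ (commutator_mem_commutator ht hs)]

theorem act_comm [N.Normal] (w : ↥⁅N, N⁆ →* ℂˣ) {s t : G} (hs : s ∈ N) (ht : t ∈ N) :
    act s (act t w) = act t (act s w) := MonoidHom.ext fun n => Units.ext
  (congrFun (conj_comm (isClassFunction_of_isIrr (isIrrCharacter_monoidHom w)) hs ht) n)

/-- The derived subgroup of `N` is a `p'`-group. -/
def PP (N : Subgroup G) (p : ℕ) : Prop := ∀ u ∈ ⁅N, N⁆, ∃ m, m.Coprime p ∧ u ^ m = 1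

theorem Hy.x0 (h : Hy N K g p r) (hP : PP N p) :
    ∃ x ∈ N, ∀ m ∈ ⁅N, N⁆, x * m = m * x → m = 1 := by
  obtain ⟨x, hx, hxK⟩ := h.lt
  obtain ⟨m, j, h1, h2⟩ := exists_ppart h.hp x
  refine ⟨x ^ m, pow_mem hx m, fun u hu e => ?_⟩
  obtain ⟨y, -, hy⟩ := h.cam' (pow_mem hx m) (fun e => hxK (h.mem_K hx h1 e)) hu
  obtain ⟨l, h3, h4⟩ := hP u hu
  exact eq_one_of_conj (h3.pow_right j).symm h2 h4 e hy

theorem Hy.p2 (h : Hy N K g p r) (hP : PP N p) [hM : M.Normal] (hMN : M ≤ ⁅N, N⁆) {w : M →* ℂˣ}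
    (hw : w ≠ 1) (h1 : ⁅N, N⁆ ≤ stab M w) {t : G} (ht : t ∈ N) (hs : t ∈ stab M w) :
    ⁅g, t⁆ ∈ ⁅N, N⁆ := by
  have hN := h.nN
  have hN1 : (⁅N, N⁆).Normal := inferInstance
  obtain ⟨x, hx, hf⟩ := h.x0 hP
  obtain ⟨m, hm, e⟩ := dec_fpf le_rfl hx hf ht
  have hc : m⁻¹ * t ∈ N := mul_mem (inv_mem (der_le N hm)) ht
  have hcs : m⁻¹ * t ∈ stab M w := mul_mem (inv_mem (h1 hm)) hs
  by_contra h2
  have h3 : ⁅g, m⁻¹ * t⁆ ∉ ⁅N, N⁆ := fun e => h2 ((comm_mul_mem (hN1.conj_mem' _ (inv_mem hm) t)).1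
    (by rwa [show t * (t⁻¹ * m⁻¹ * t) = m⁻¹ * t by group]))
  have h4 := fpf_of_cam le_rfl (der_le N) hx hf hc e fun n hn => h.cam hc h3 hn
  refine hw (MonoidHom.ext fun v => ?_)
  obtain ⟨u, hu, e1⟩ := surj_of_fpf (fun m hm => hM.conj_mem' m hm _)
    (fun m hm => h4 m (hMN hm)) v.2
  have := mem_stab'.1 (inv_mem hcs) u hu
  rwa [show (⟨⁅(m⁻¹ * t)⁻¹, u⁆, _⟩ : M) = v from Subtype.ext (Eq.trans (by
    simp only [commutatorElement_def, inv_inv]) e1)] at this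

theorem Hy.nT (h : Hy N K g p r) [hM : M.Normal] (hMN : M ≤ ⁅N, N⁆) {w : M →* ℂˣ}
    (hw : w ≠ 1) (h1 : ⁅N, N⁆ ≤ stab M w) : (N ⊓ stab M w).Normal :=
  have := h.nN
  h.norm (h.copw hMN hw) fun n hn x hx => h1 (commutator_mem_commutator hn hx.1)

theorem Hy.p3 (h : Hy N K g p r) (hP : PP N p) [N.Normal] {w : ↥⁅N, N⁆ →* ℂˣ} (hw : w ≠ 1) :
    ∃ χ, Big N χ ∧ charDegree χ = (stab _ w).index := by
  have := Fintype.ofFinite ↥⁅N, N⁆
  obtain ⟨x, hx, hf⟩ := h.x0 hP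
  obtain ⟨y, hy⟩ := DFunLike.ne_iff.1 hw
  obtain ⟨χ, hχ, h2⟩ := exists_big (isIrrCharacter_monoidHom w) y.2 (lin_ne hy)
  obtain ⟨e, -, h3⟩ := exists_index_inertia_dvd _ hχ.1 (isIrrCharacter_monoidHom w) h2
  have := h.nT le_rfl hw (le_stab _ w)
  refine ⟨χ, hχ, Nat.dvd_antisymm (h.key (h.copw le_rfl hw) (le_stab _ w) hχ fun a ha b hb => ?_)
    (h3 ▸ Dvd.dvd.mul_right (Dvd.intro_left e rfl) _)⟩
  refine apply_eq_degree_of_under_normal _ hχ.1 (isIrrCharacter_monoidHom w) h2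
    ⁅N ⊓ stab _ w, ⁅N, N⁆⁆ (commutator_le_right _ _) (fun v hv => by
      simp only [ker_of_stab inf_le_right v hv, map_one]) ?_
  obtain ⟨m, hm, e1⟩ := dec_fpf le_rfl hx hf ha.1
  obtain ⟨m', hm', e2⟩ := dec_fpf le_rfl hx hf hb.1
  have l : ⁅N, N⁆ ≤ N ⊓ stab _ w := le_inf (der_le N) (le_stab _ w)
  have c : ∀ {u z}, u ∈ ⁅N, N⁆ → z ∈ N ⊓ stab _ w → ⁅u, z⁆ ∈ ⁅N ⊓ stab _ w, ⁅N, N⁆⁆ :=
    fun hu hz => (Subgroup.commutator_comm _ _).le (commutator_mem_commutator hu hz)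
  have a1 := mul_mem (inv_mem (l hm)) ha
  have a2 := mul_mem (inv_mem (l hm')) hb
  have := comm_mod (c hm a1) (c hm (mul_mem (l hm') a2)) (c hm' a1) (c hm' a2)
  rwa [hf _ (commutator_mem_commutator a1.1 a2.1) (Commute.mul_right (Commute.mul_right
    (Commute.mul_right e1 e2) (Commute.inv_right e1)) (Commute.inv_right e2)), inv_one, mul_one,
    mul_inv_cancel_left, mul_inv_cancel_left] at this

theorem idx_dvd {S T : Subgroup G} (hS : S.index.Coprime N.index) (hT : T.index.Coprime N.index)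
    (h : N ⊓ S ≤ T) : T.index ∣ S.index := by
  rw [← relIndex_eq_of_coprime hS, ← relIndex_eq_of_coprime hT, ← inf_relIndex_left N S]
  exact relIndex_dvd_of_le_left _ h

theorem Hy.anti (h : Hy N K g p r) (hP : PP N p) [N.Normal] {w w' : ↥⁅N, N⁆ →* ℂˣ} (hw : w ≠ 1)
    (hw' : w' ≠ 1) (h1 : N ⊓ stab _ w ≤ stab _ w') : N ⊓ stab _ w' ≤ stab _ w := by
  obtain ⟨χ, hχ, e⟩ := h.p3 hP hw
  obtain ⟨χ', hχ', e'⟩ := h.p3 hP hw'
  have h2 := h.nd χ' χ hχ' hχ (by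
    rw [e, e']; exact idx_dvd (h.copw le_rfl hw) (h.copw le_rfl hw') h1)
  have := eq_of_le_of_index_le (le_inf inf_le_left h1) (by
    rw [← relIndex_mul_index (inf_le_left : N ⊓ stab _ w ≤ N),
      ← relIndex_mul_index (inf_le_left : N ⊓ stab _ w' ≤ N), inf_relIndex_left, inf_relIndex_left,
      relIndex_eq_of_coprime (h.copw le_rfl hw), relIndex_eq_of_coprime (h.copw le_rfl hw'),
      ← e, ← e', h2])
  exact this.ge.trans inf_le_right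

theorem Hy.allT (h : Hy N K g p r) (hP : PP N p) [N.Normal] {w w' : ↥⁅N, N⁆ →* ℂˣ} (hw : w ≠ 1)
    (hw' : w' ≠ 1) : N ⊓ stab _ w ≤ stab _ w' := by
  have k : ∀ {t : G}, t ∈ stab _ w → t ∈ stab _ (w * w') → t ∈ stab _ w' := fun h1 h2 => by
    rw [mem_act] at h1 h2 ⊢
    rwa [map_mul, h1, mul_right_inj] at h2
  by_cases h0 : w * w' = 1
  · exact fun t ht => k ht.2 (mem_act.2 (by rw [h0, map_one]))
  by_cases h1 : N ⊓ stab _ (w * w') ≤ stab _ w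
  · exact fun t ht => k ht.2 (h.anti hP h0 hw h1 ht)
  obtain ⟨s, hs, h2⟩ := SetLike.not_le_iff_exists.1 h1
  have h3 : act s w * w⁻¹ ≠ 1 := fun e => h2 (mem_act.2 (mul_inv_eq_one.1 e))
  have h4 : act s w * w⁻¹ = (act s w')⁻¹ * w' := cg1 (mem_act.1 hs.2)
  refine fun t ht => h.anti hP hw' h3 (fun u hu => mem_act.2 ?_) ⟨ht.1, mem_act.2 ?_⟩
  · rw [h4, map_mul, map_inv, act_comm _ hu.1 hs.1, mem_act.1 hu.2]
  · rw [map_mul, map_inv, act_comm _ ht.1 hs.1, mem_act.1 ht.2]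

/-- The linear characters that fix `θ` under multiplication. -/
def lam (θ : M → ℂ) : Subgroup (M →* ℂˣ) where
  carrier := {w | ∀ n, θ n ≠ 0 → w n = 1}
  mul_mem' ha hb n hn := by rw [MonoidHom.mul_apply, ha n hn, hb n hn, mul_one]
  one_mem' _ _ := rfl
  inv_mem' ha n hn := by rw [inv_ap, ha n hn, inv_one]

theorem fpf_quot [M.Normal] {θ : M → ℂ} {t : G} (ht : t ∈ inertia M θ)
    (hf : ∀ w : M →* ℂˣ, t ∈ stab M w → w = 1) {u : M →* ℂˣ} (hu : act t u * u⁻¹ ∈ lam θ) :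
    u ∈ lam θ := by
  have inj : ∀ a b : M →* ℂˣ, act t a * a⁻¹ = act t b * b⁻¹ → a = b := fun a b e =>
    mul_inv_eq_one.1 (hf _ (mem_act.2 (cg2 e)))
  let f : lam θ → lam θ := fun a => ⟨act t a * (a : M →* ℂˣ)⁻¹, mul_mem
    (fun n hn => a.2 _ fun e => hn ((congrFun ht n).symm.trans e)) (inv_mem a.2)⟩
  obtain ⟨a, ha⟩ := Finite.injective_iff_surjective.1
    (fun a b e => Subtype.ext (inj _ _ (congrArg Subtype.val e)) : Function.Injective f) ⟨_, hu⟩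
  exact inj _ _ (congrArg Subtype.val ha) ▸ a.2

theorem Hy.van (h : Hy N K g p r) (hP : PP N p) [N.Normal] {θ : ↥⁅N, N⁆ → ℂ}
    (hθ : IsIrrCharacter _ θ) (h1 : charDegree θ ≠ 1) (w : ↥⁅N, N⁆ →* ℂˣ) : w ∈ lam θ := by
  by_contra hw
  have hw1 : w ≠ 1 := fun e => hw (e ▸ one_mem _)
  have A : ∀ θ : ↥⁅N, N⁆ → ℂ, IsIrrCharacter _ θ → charDegree θ ≠ 1 → ∃ t ∈ N, t ∈ inertia _ θ ∧
      ∀ u : ↥⁅N, N⁆ →* ℂˣ, t ∈ stab _ u → u = 1 := fun θ hθ h1 => by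
    by_contra hc
    push Not at hc
    obtain ⟨x, -, hx⟩ := exists_der hθ h1
    obtain ⟨χ, hχ, e⟩ := h.p3 hP hw1
    obtain ⟨ψ, hψ, h2⟩ := exists_big' hθ x.2 hx
    have h3 := idx_dvd (h.cop' hθ x.2 hx) (h.copw le_rfl hw1) fun t ht => by
      obtain ⟨u, h3, h4⟩ := hc t ht.1 ht.2
      exact h.allT hP h4 hw1 ⟨ht.1, h3⟩
    have h4 := (Nat.mul_dvd_mul_right h3 _).trans h2
    rw [← h.nd χ ψ hχ hψ (e ▸ (Dvd.intro _ rfl).trans h4), e] at h4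
    exact h1 (Nat.eq_one_of_dvd_one (Nat.dvd_of_mul_dvd_mul_left
      (Nat.pos_of_ne_zero index_ne_zero_of_finite) (by rwa [mul_one])))
  have hθ' := isIrrCharacter_monoidHom_mul hθ w
  obtain ⟨t, ht, h2, h3⟩ := A θ hθ h1
  obtain ⟨s, hs, h4, h5⟩ := A _ hθ' (by rwa [charDegree_congr (θ := θ) (by simp)])
  have h6 := conj_comm (isClassFunction_of_isIrr hθ') hs ht
  rw [(mem_inertia _).1 h4] at h6
  have h7 : ∀ n, conjChar _ t (fun n => (w n : ℂ) * θ n) n =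
      ((act t w * w⁻¹) n : ℂ) * ((w n : ℂ) * θ n) := fun n => by
    rw [← congrFun h2 n, MonoidHom.mul_apply, inv_ap, ← mul_assoc, ← Units.val_mul,
      inv_mul_cancel_right]
    rfl
  have h8 := fpf_quot h4 h5 (u := act t w * w⁻¹) fun n hn => by
    have e1 := congrFun h6 n
    rw [h7, conjChar_apply, h7] at e1
    have e2 := congrFun h4 n
    rw [conjChar_apply] at e2
    rw [e2] at e1
    rw [MonoidHom.mul_apply, inv_ap, mul_inv_eq_one]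
    exact Units.ext (mul_right_cancel₀ hn e1)
  exact hw (fpf_quot h2 h3 fun n hn => h8 n (mul_ne_zero (Units.ne_zero _) hn))

theorem Hy.cam1 (h : Hy N K g p r) (hP : PP N p) {x : G} (hx : x ∈ ⁅N, N⁆)
    (hxM : x ∉ ⁅⁅N, N⁆, ⁅N, N⁆⁆) {n : G} (hn : n ∈ ⁅⁅N, N⁆, ⁅N, N⁆⁆) :
    ∃ y ∈ ⁅N, N⁆, y * x * y⁻¹ = x * n := by
  have hN := h.nN
  have hn' := der_le _ hn
  have v : ∀ θ : ↥⁅N, N⁆ → ℂ, IsIrrCharacter _ θ → charDegree θ ≠ 1 → ∀ y : ↥⁅N, N⁆,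
      (y : G) ∉ ⁅⁅N, N⁆, ⁅N, N⁆⁆ → θ y = 0 := fun θ hθ h1 y hy => by
    obtain ⟨w, hw, -⟩ := exists_lin le_rfl y.2 hy
    by_contra h2
    exact hw (h.van hP hθ h1 w y h2)
  have : IsConj (⟨x, hx⟩ : ↥⁅N, N⁆) (⟨x, hx⟩ * ⟨n, hn'⟩) :=
    (isConj_iff_forall_irr _ _).2 fun ψ => by
      by_cases h1 : charDegree (ψ : ↥⁅N, N⁆ → ℂ) = 1
      · refine (apply_mul_of_apply_eq_degree' (isCharacter_of_isIrr ψ.2)
          ((commutator_le_charKer_iff ψ.2).2 h1 _ ?_) _).symm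
        rw [← map_subtype_commutator ⁅N, N⁆] at hn
        obtain ⟨y, hy, e⟩ := hn
        rwa [show (⟨n, hn'⟩ : ↥⁅N, N⁆) = y from Subtype.ext e.symm]
      · rw [v _ ψ.2 h1 _ hxM, v _ ψ.2 h1 _ fun e => hxM ((mul_mem_cancel_right hn).1 e)]
  obtain ⟨y, hy⟩ := isConj_iff.1 this
  exact ⟨y, y.2, congrArg Subtype.val hy⟩

end Cfsg.Agent.ND
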