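import Cfsg.Agent.ND.C

/-!
Solvable groups without divisibility among character degrees: all big degrees agree.
-/

set_option autoImplicit false
set_option linter.unusedSectionVars false
set_option linter.unusedVariables false

open scoped commutatorElement
open Cfsg Cfsg.Agent.H5 Cfsg.Agent.H6 Cfsg.Agent.H88 Subgroup

namespace Cfsg.Agent.ND

variable {G : Type*} [Group G] [Finite G] {N K M : Subgroup G} {g : G} {p r : ℕ}

theorem comm_mem_iff {V : Subgroup G} [V.Normal] {a b : G} :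
    ⁅a, b⁆ ∈ V ↔ a ∈ (centralizer {QuotientGroup.mk' V b}).comap (QuotientGroup.mk' V) := by
  rw [mem_comap, mem_centralizer_singleton_iff, ← commutatorElement_eq_one_iff_mul_comm,
    ← map_commutatorElement, QuotientGroup.mk'_apply, QuotientGroup.eq_one_iff]

theorem Hy.pow (h : Hy N K g p r) {m : ℕ} (hm : m.Coprime r) : Hy N K (g ^ m) p r := by
  have := h.nK
  refine { h with gr := ?_, fpf := fun y hy e => h.fpf y hy ?_ }
  · rw [← pow_mul, mul_comm, pow_mul]; exact pow_mem h.gr m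
  · exact comm_mem_iff.2 (mem_of_cop' hm (comm_mem_iff.1 e)
      (comm_mem_iff.1 (h.dK (commutator_mem_commutator h.gr hy))))

theorem Hy.count (h : Hy N K g p r) (hP : PP N p) {j : ℕ} (hg : g ^ r ^ j = 1) [hM : M.Normal]
    (hMN : M ≤ ⁅N, N⁆) (h1 : ∀ w, ⁅N, N⁆ ≤ stab M w) :
    (Nat.card (M →* ℂˣ) - 1) * Nat.card {e // e ∈ N ∧ ⁅g, ⁅g, e⁆⁆ ∈ ⁅N, N⁆} =
      Nat.card N * (Nat.card ((act g).eqLocus (MonoidHom.id (M →* ℂˣ))) - 1) := by
  classical
  have hN := h.nN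
  have := Fact.mk h.hr
  have := Fintype.ofFinite G
  have := Fintype.ofFinite (M →* ℂˣ)
  have e1 : Nat.card ((act g).eqLocus (MonoidHom.id (M →* ℂˣ))) =
      (Finset.univ.filter fun w : M →* ℂˣ => act g w = w).card := by
    rw [← Fintype.card_subtype, ← Nat.card_eq_fintype_card]; rfl
  have e2 : Nat.card N = (Finset.univ.filter fun n => n ∈ N).card := by
    rw [← Fintype.card_subtype, ← Nat.card_eq_fintype_card]
  rw [e1, e2, Nat.card_eq_fintype_card, Nat.card_eq_fintype_card, Fintype.card_subtype,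
    ← Finset.card_univ, ← Finset.card_erase_of_mem (Finset.mem_univ 1),
    ← Finset.card_erase_of_mem (a := 1) (by simp)]
  refine Finset.card_mul_eq_card_mul (fun w n => n * g * n⁻¹ ∈ stab M w) (fun w hw => ?_)
    fun n hn => ?_
  · have hw := Finset.ne_of_mem_erase hw
    have hT := h.copw hMN hw
    have hr : (stab M w).index.Coprime r := hT.coprime_dvd_right h.rd
    have hn := h.nT hMN hw (h1 w)
    obtain ⟨a, ha⟩ := H82.exists_conj_mem_of_not_dvd_index (p := r) (P := zpowers g) (by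
      rintro ⟨_, k, rfl⟩
      exact ⟨j, Subtype.ext (by
        change (g ^ k) ^ r ^ j = 1
        rw [← zpow_natCast, ← zpow_mul, mul_comm, zpow_mul, zpow_natCast, hg, one_zpow])⟩)
      (stab M w) ((Nat.Prime.coprime_iff_not_dvd h.hr).1 hr.symm)
    obtain ⟨n, hn0, t, ht, rfl⟩ := dec_of_coprime hT a
    have h2 : n⁻¹ * g * n ∈ stab M w := by
      have := mul_mem (mul_mem ht (ha g (mem_zpowers g))) (inv_mem ht)
      rwa [show t * ((n * t)⁻¹ * g * (n * t)) * t⁻¹ = n⁻¹ * g * n by group] at this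
    have key : ∀ e ∈ N, n⁻¹ * e * g * (n⁻¹ * e)⁻¹ ∈ stab M w ↔ ⁅g, ⁅g, e⁆⁆ ∈ ⁅N, N⁆ := fun e he => by
      have hz : ⁅g, e⁆ ∈ N := mul_mem (hN.conj_mem e he g) (inv_mem he)
      rw [show n⁻¹ * e * g * (n⁻¹ * e)⁻¹ = n⁻¹ * ⁅g, e⁆⁻¹ * n * (n⁻¹ * g * n) by
        simp only [commutatorElement_def]; group, mul_mem_cancel_right h2]
      constructor
      · intro h3
        have := hn.conj_mem _ ⟨hN.conj_mem' _ (inv_mem hz) n, h3⟩ n
        rw [show n * (n⁻¹ * ⁅g, e⁆⁻¹ * n) * n⁻¹ = ⁅g, e⁆⁻¹ by group, inv_mem_iff] at this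
        exact h.p2 hP hMN hw (h1 w) hz this.2
      · intro h3
        refine (hn.conj_mem' _ (inv_mem (mem_of_cop' (b := r ^ j) ?_
          (pow_relIndex_mem _ hz) ⟨pow_mem hz _, h1 w ?_⟩)) n).2
        · rw [inf_relIndex_left, relIndex_eq_of_coprime hT]; exact hr.pow_right j
        · let f := QuotientGroup.mk' ⁅N, N⁆
          have c : Commute (f g) (f ⁅g, e⁆) := mem_centralizer_singleton_iff.1 (comm_mem_iff.1 h3)
          have i : ∀ k : ℕ, f g ^ k * f e = f ⁅g, e⁆ ^ k * f e * f g ^ k := fun k => by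
            induction k with
            | zero => simp
            | succ k ih =>
              calc f g ^ (k + 1) * f e = f g * (f g ^ k * f e) := by group
                _ = f g * f ⁅g, e⁆ ^ k * f e * f g ^ k := by rw [ih]; group
                _ = f ⁅g, e⁆ ^ k * ⁅f g, f e⁆ * f e * f g ^ (k + 1) := by
                  rw [(c.pow_right k).eq]; simp only [commutatorElement_def]; group
                _ = _ := by rw [← map_commutatorElement, ← pow_succ]
          have := i (r ^ j)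
          rw [← map_pow, hg, map_one, one_mul, mul_one, right_eq_mul, ← map_pow] at this
          exact (QuotientGroup.eq_one_iff _).1 this
    refine Finset.card_nbij' (fun x => n * x) (fun x => n⁻¹ * x) (fun x hx => ?_) (fun x hx => ?_)
      (fun x _ => by simp) (fun x _ => by simp)
    · simp only [Finset.coe_filter, Finset.bipartiteAbove, Finset.mem_filter, Finset.mem_univ,
        true_and, Set.mem_ofPred_eq] at hx ⊢
      exact ⟨mul_mem hn0 hx.1, (key _ (mul_mem hn0 hx.1)).1 (by simpa using hx.2)⟩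
    · simp only [Finset.coe_filter, Finset.bipartiteAbove, Finset.mem_filter, Finset.mem_univ,
        true_and, Set.mem_ofPred_eq] at hx ⊢
      exact ⟨mul_mem (inv_mem hn0) hx.1, (key _ hx.1).2 hx.2⟩
  · have i1 : ∀ (a : G) (w : M →* ℂˣ), act a⁻¹ (act a w) = w := fun a w => by
      rw [← act_mul, mul_inv_cancel, act_one]
    have i2 : ∀ (a : G) (w : M →* ℂˣ), act a (act a⁻¹ w) = w := fun a w => by
      rw [← act_mul, inv_mul_cancel, act_one]
    refine Finset.card_nbij' (act n) (act n⁻¹) (fun x hx => ?_) (fun x hx => ?_)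
      (fun x _ => i1 n x) (fun x _ => i2 n x)
    · simp only [Finset.coe_filter, Finset.bipartiteBelow, Finset.mem_filter, Finset.mem_univ,
        true_and, Set.mem_ofPred_eq, Finset.mem_erase, Finset.mem_coe, and_true, mem_act,
        act_mul] at hx ⊢
      exact ⟨fun e => hx.1 (act_inj n (e.trans (map_one _).symm)),
        act_inj n⁻¹ (hx.2.trans (i1 n x).symm)⟩
    · simp only [Finset.coe_filter, Finset.bipartiteBelow, Finset.mem_filter, Finset.mem_univ,
        true_and, Set.mem_ofPred_eq, Finset.mem_erase, Finset.mem_coe, and_true, mem_act,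
        act_mul] at hx ⊢
      exact ⟨fun e => hx.1 (act_inj n⁻¹ (e.trans (map_one _).symm)), by rw [i2, hx.2]⟩

theorem arith_aux {s a b a' b' : ℕ} (hs : 1 < s) (h1 : b < a) (h2 : b' < a') (h3 : b < b')
    (h : (s ^ a - 1) * (s ^ b' - 1) = (s ^ a' - 1) * (s ^ b - 1)) : False := by
  have p1 : ∀ k, 1 ≤ s ^ k := fun k => Nat.one_le_pow k s (by omega)
  zify [p1] at h
  have d : ∀ k, b < k → (s : ℤ) ^ (b + 1) ∣ s ^ k := fun k hk => pow_dvd_pow _ hk
  have : (s : ℤ) ^ (b + 1) ∣ s ^ b := by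
    have e : (s : ℤ) ^ b = s ^ a' * (s ^ b - 1) - s ^ a * (s ^ b' - 1) + s ^ b' := by
      linear_combination h
    rw [e]
    exact dvd_add (dvd_sub ((d _ (by omega)).mul_right _) ((d _ h1).mul_right _)) (d _ h3)
  have := Nat.le_of_dvd (p1 b) (by exact_mod_cast this : s ^ (b + 1) ∣ s ^ b)
  exact absurd this (not_le.2 (Nat.pow_lt_pow_right hs (Nat.lt_succ_self b)))

theorem arith {s a b a' b' e n : ℕ} (hs : 1 < s) (he : 0 < e) (hn : e < n) (ha : 1 < s ^ a)
    (ha' : 1 < s ^ a') (h : (s ^ a - 1) * e = n * (s ^ b - 1))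
    (h' : (s ^ a' - 1) * e = n * (s ^ b' - 1)) : s ^ a = s ^ a' := by
  have l : ∀ {a b}, 1 < s ^ a → (s ^ a - 1) * e = n * (s ^ b - 1) → b < a := fun {a b} ha h => by
    by_contra hc
    have := Nat.pow_le_pow_right hs.le (not_lt.1 hc)
    have h1 : s ^ a - 1 ≤ s ^ b - 1 := by omega
    have h2 : 0 < s ^ a - 1 := by omega
    nlinarith
  have c : (s ^ a - 1) * (s ^ b' - 1) = (s ^ a' - 1) * (s ^ b - 1) :=
    Nat.eq_of_mul_eq_mul_left (by omega : 0 < n) (by
      calc n * ((s ^ a - 1) * (s ^ b' - 1)) = (s ^ a - 1) * (n * (s ^ b' - 1)) := by ring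
        _ = (s ^ a' - 1) * (n * (s ^ b - 1)) := by rw [← h, ← h']; ring
        _ = _ := by ring)
  rcases lt_trichotomy b b' with h1 | rfl | h1
  · exact (arith_aux hs (l ha h) (l ha' h') h1 c).elim
  · have := Nat.eq_of_mul_eq_mul_right he (h.trans h'.symm)
    omega
  · exact (arith_aux hs (l ha' h') (l ha h) h1 c.symm).elim

theorem Hy.caseC (h : Hy N K g p r) (hP : PP N p) (e : M = ⁅⁅N, N⁆, ⁅N, N⁆⁆) (hM : M ≠ ⊥)
    (hmin : ∀ Y : Subgroup G, Y.Normal → Y ≤ M → Y = ⊥ ∨ Y = M) : False := by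
  have hN := h.nN
  have := h.solv
  have hMn : M.Normal := e ▸ inferInstance
  have hN1 : (⁅N, N⁆).Normal := inferInstance
  have hMN : M ≤ ⁅N, N⁆ := e.le.trans (der_le _)
  obtain ⟨hab, s, hs, hps⟩ := H2.minimal_normal_elementary_abelian M inferInstance hM hmin
  have hMC : M ≤ centralizer (M : Set G) := fun a ha b hb => H2.mul_comm_of_mem hab hb ha
  have cam : ∀ x ∈ ⁅N, N⁆, x ∉ M → ∀ n ∈ M, ∃ y ∈ ⁅N, N⁆, y * x * y⁻¹ = x * n :=
    fun x hx h1 n hn => h.cam1 hP hx (e ▸ h1) (e ▸ hn)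
  have hlt : ¬ ⁅N, N⁆ ≤ M := fun h1 => (Group.IsSolvable.commutator_lt_of_ne_bot
    fun h2 => hM (le_bot_iff.1 (h2 ▸ hMN))).not_ge (e ▸ h1)
  obtain ⟨n, hn, hnK⟩ := h.lt
  by_cases hS : ∀ a ∈ ⁅N, N⁆, ∃ j, a ^ s ^ j = 1
  · have := Fact.mk hs
    have hS' : IsPGroup s ↥⁅N, N⁆ := fun a => (hS a a.2).imp fun j e => Subtype.ext e
    have hc : ⁅⁅N, N⁆, M⁆ = ⊥ := (hmin _ inferInstance (commutator_le_right _ _)).resolve_right
      fun e => hM (H62.eq_bot_of_le_comm hS' hMN (e.ge.trans (Subgroup.commutator_comm _ _).le))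
    obtain ⟨m, j, h1, h2⟩ := exists_ppart h.hr g
    have h' := h.pow h1
    have c1 := h'.count hP h2 le_rfl (le_stab _)
    have c2 := h'.count hP h2 hMN fun w t ht => mem_stab'.2 fun u hu => by
      rw [show (⟨⁅t, u⁆, _⟩ : M) = 1 from Subtype.ext
        (commutatorElement_eq_one_iff_commute.2 (comm_of_bot hc ht hu)), map_one]
    obtain ⟨k, hk⟩ := hS'.exists_card_eq
    obtain ⟨a, -, ha⟩ := (Nat.dvd_prime_pow hs).1 (hk ▸ index_dvd_card (commutator ↥⁅N, N⁆))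
    obtain ⟨a', ha'⟩ := (hS'.to_le hMN).exists_card_eq
    have w1 := card_monoidHom_eq_index_commutator.trans ha
    have w2 := (card_monoidHom_of_comm hab.is_comm.comm).trans ha'
    obtain ⟨b, -, hb⟩ := (Nat.dvd_prime_pow hs).1 (w1 ▸ card_subgroup_dvd_card
      ((act (g ^ m)).eqLocus (MonoidHom.id _)))
    obtain ⟨b', -, hb'⟩ := (Nat.dvd_prime_pow hs).1 (w2 ▸ card_subgroup_dvd_card
      ((act (g ^ m)).eqLocus (MonoidHom.id _)))
    rw [w1, hb] at c1
    rw [w2, hb'] at c2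
    have cm : ∀ y : ↥⁅N, N⁆, y ∈ commutator ↥⁅N, N⁆ ↔ (y : G) ∈ M := fun y => by
      rw [e, ← map_subtype_commutator ⁅N, N⁆]
      exact ⟨fun h => ⟨y, h, rfl⟩, fun ⟨z, hz, e⟩ => Subtype.ext e ▸ hz⟩
    obtain ⟨x, hx, hxM⟩ := SetLike.not_le_iff_exists.1 hlt
    have : Nonempty {e // e ∈ N ∧ ⁅g ^ m, ⁅g ^ m, e⁆⁆ ∈ ⁅N, N⁆} := ⟨⟨1, one_mem _, by simp⟩⟩
    have := arith hs.one_lt Nat.card_pos ((Nat.card_congr (Equiv.subtypeSubtypeEquivSubtypeInter
      (· ∈ N) _).symm).trans_lt (Finite.card_subtype_lt (x := (⟨n, hn⟩ : N)) fun h3 =>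
        hnK (h'.fpf n hn (h'.fpf _ (mul_mem (hN.conj_mem n hn _) (inv_mem hn)) (h.dK h3)))))
      (ha ▸ one_lt_index_of_ne_top fun e => hxM ((cm ⟨x, hx⟩).1 (e ▸ mem_top _)))
      (ha' ▸ (one_lt_card_iff_ne_bot M).2 hM) c1 c2
    let f : ↥⁅N, N⁆ ⧸ commutator ↥⁅N, N⁆ → M := fun q => Quotient.liftOn' q
      (fun y => ⟨⁅x⁻¹, (y : G)⁆, e.ge (commutator_mem_commutator (inv_mem hx) y.2)⟩)
      fun y z hyz => Subtype.ext (by
        have := (comm_of_bot hc hx ((cm _).1 (QuotientGroup.leftRel_apply.1 hyz))).eq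
        calc ⁅x⁻¹, (y : G)⁆ = x⁻¹ * y * (x * ((y : G)⁻¹ * z)) * (z : G)⁻¹ := by
              simp only [commutatorElement_def]; group
          _ = ⁅x⁻¹, (z : G)⁆ := by
              erw [this]; simp only [commutatorElement_def, coe_mul, coe_inv]; group)
    have hf : Function.Surjective f := fun u => by
      obtain ⟨y, hy, h3⟩ := cam x hx hxM u u.2
      exact ⟨((⟨y, hy⟩ : ↥⁅N, N⁆) : _ ⧸ _), Subtype.ext (by
        change ⁅x⁻¹, y⁆ = u
        rw [commutatorElement_def, inv_inv, mul_assoc, mul_assoc, ← mul_assoc y, h3,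
          inv_mul_cancel_left])⟩
    have := (hf.bijective_of_nat_card_le (by rw [← index_eq_card, ha, ha', this])).1
      (a₁ := ((⟨x, hx⟩ : ↥⁅N, N⁆) : _ ⧸ _)) (a₂ := ((1 : ↥⁅N, N⁆) : _ ⧸ _)) (Subtype.ext (by
        change ⁅x⁻¹, x⁆ = ⁅x⁻¹, 1⁆
        simp [commutatorElement_def]))
    exact hxM ((cm ⟨x, hx⟩).1 ((QuotientGroup.eq_one_iff _).1 this))
  · push Not at hS
    obtain ⟨a, ha, h1⟩ := hS
    obtain ⟨m, j, h2, h3⟩ := exists_ppart hs a
    rw [← pow_mul, mul_comm, pow_mul] at h3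
    have h4 := h1 j
    have ha' := pow_mem ha (s ^ j)
    generalize a ^ s ^ j = b at h3 h4 ha'
    have hbM : b ∉ M := fun hb =>
      h4 (mem_bot.1 (mem_of_cop' h2 (mem_bot.2 h3) (mem_bot.2 (hps b hb))))
    have hf : ∀ u ∈ M, b * u = u * b → u = 1 := fun u hu e => by
      obtain ⟨y, -, hy⟩ := cam b ha' hbM u hu
      exact eq_one_of_conj h2 h3 (hps u hu) e hy
    have hf' : ∀ t ∈ ⁅N, N⁆, t ∉ M → ∀ u ∈ M, t * u = u * t → u = 1 := fun t ht htM u hu e1 => by
      obtain ⟨v, hv, e2⟩ := dec_fpf e.ge ha' hf ht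
      have hc := mul_mem (inv_mem (hMN hv)) ht
      exact fpf_of_cam e.ge hMN ha' hf hc e2 (cam _ hc fun h5 =>
        htM ((mul_mem_cancel_left (inv_mem hv)).1 h5)) u hu
        (Commute.mul_left (hMC (inv_mem hv) u hu).symm e1)
    obtain ⟨y, hy, h5⟩ := cyc_of_fpf hM (e.ge.trans hMC) fun t ht h5 => hf' t ht fun h6 => h5 (hMC h6)
    have h6 : ∀ x : ↥⁅N, N⁆, ∃ k : ℤ, ∀ w : ↥⁅N, N⁆ →* ℂˣ, w x = w ⟨y, hy⟩ ^ k := fun x => by
      obtain ⟨k, hk⟩ := h5 x x.2
      refine ⟨k, fun w => ?_⟩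
      have hx := mul_mem (inv_mem (zpow_mem hy k)) x.2
      have := ker_of_stab (le_stab _ w) ((⟨y, hy⟩ ^ k)⁻¹ * x) (e.le (by
        by_contra h7
        exact hM (eq_bot_iff.2 fun u hu => mem_bot.2 (hf' _ hx h7 u hu (hk u hu).symm))))
      rw [map_mul, map_inv, map_zpow, inv_mul_eq_one] at this
      exact this.symm
    have h7 : ∀ a : G, ∃ k : ℤ, ∀ (w : ↥⁅N, N⁆ →* ℂˣ) x, act a w x = w x ^ k := fun a => by
      obtain ⟨k, hk⟩ := h6 (MulAut.conjNormal a ⟨y, hy⟩)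
      refine ⟨k, fun w x => ?_⟩
      obtain ⟨l, hl⟩ := h6 x
      rw [hl, hl w, ← zpow_mul, mul_comm, zpow_mul, ← hk]; rfl
    obtain ⟨w, hw, -⟩ := exists_ne_one e.ge hlt
    obtain ⟨k, hk⟩ := h7 g
    have hz : ⁅g, n⁆ ∈ N := mul_mem (hN.conj_mem n hn g) (inv_mem hn)
    refine hnK (h.fpf n hn (h.fpf _ hz (h.dK (h.p2 hP le_rfl hw (le_stab _ w) hz
      (mem_act.2 (act_inj (n * g) ?_))))))
    rw [← act_mul, show ⁅g, n⁆ * (n * g) = g * n by simp only [commutatorElement_def]; group,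
      act_mul, act_mul]
    exact MonoidHom.ext fun x => (hk w _).trans (hk (act n w) x).symm

theorem Hy.main (h : Hy N K g p r) {χ ψ : G → ℂ} (hχ : Big N χ) (hψ : Big N ψ) :
    charDegree χ = charDegree ψ := by
  have hN := h.nN
  obtain ⟨L, hL⟩ := h.exists_pc
  rcases h.dich hL with h0 | h0
  · exact h.case1 hL h0 hχ hψ
  have hP : PP N p := fun u hu => hL.cop u (h0 hu)
  by_cases hM : ⁅⁅N, N⁆, ⁅N, N⁆⁆ = ⊥
  · have key : ∀ χ, Big N χ → ∃ w : ↥⁅N, N⁆ →* ℂˣ, w ≠ 1 ∧ charDegree χ = (stab _ w).index :=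
      fun χ hχ => by
        have := Fintype.ofFinite ↥⁅N, N⁆
        obtain ⟨θ, hθ, h1⟩ := exists_irr_under' ⁅N, N⁆ hχ.1
        obtain ⟨w, rfl⟩ := exists_monoidHom_of_comm
          (fun a b => Subtype.ext (comm_of_bot hM a.2 b.2)) hθ
        have hw : w ≠ 1 := by
          rintro rfl
          obtain ⟨x, hx, h2⟩ := hχ.2
          exact h2 (apply_eq_degree_of_under_normal _ hχ.1 hθ h1 _ le_rfl (fun _ _ => rfl) hx)
        obtain ⟨e, -, h3⟩ := exists_index_inertia_dvd _ hχ.1 hθ h1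
        obtain ⟨φ, hφ, h4⟩ := h.p3 hP hw
        exact ⟨w, hw, (h.nd φ χ hφ hχ (by
          rw [h4, h3]; exact Dvd.dvd.mul_right (Dvd.intro_left e rfl) _)).symm.trans h4⟩
    obtain ⟨w, hw, e⟩ := key χ hχ
    obtain ⟨w', hw', e'⟩ := key ψ hψ
    exact h.nd χ ψ hχ hψ (by
      rw [e, e']; exact idx_dvd (h.copw le_rfl hw') (h.copw le_rfl hw) (h.allT hP hw' hw))
  · obtain ⟨V, hV, -⟩ := H62.exists_chief_below inferInstance inferInstance (bot_lt_iff_ne_bot.2 hM)
    have := hV.2.2.1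
    refine ((h.quot V (hV.1.le.trans (der_le _))).caseC ?_ ?_ (min_quot hV).1 (min_quot hV).2).elim
    · intro u hu
      rw [← map_commutator] at hu
      obtain ⟨u, hu, rfl⟩ := hu
      obtain ⟨m, h1, h2⟩ := hP u hu
      exact ⟨m, h1, by rw [← map_pow, h2, map_one]⟩
    · simp only [map_commutator]

end Cfsg.Agent.ND
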